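import Cfsg.Agent.G2Sq.Levi
import Cfsg.Agent.ChevGrp.BN

/-!
Every element of `G₂` has a conjugate in the open cell of the long root parabolic.
-/

set_option autoImplicit false

namespace Cfsg.Agent.G2Sq

open Cfsg.Lie Cfsg.Agent.ChevGrp Cfsg.Agent.G2Inv Cfsg.Agent.G2Deg
open scoped MatrixGroups

variable {F : Type*} [Field F]

/-- The largest Bruhat cell. -/
def Top0 (F : Type*) [Field F] : Set (Gam F) :=
  {y | ∃ b ∈ (gs F).Bbar, ∃ b' ∈ (gs F).Bbar, y = b * n0 F * b'}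

theorem cellData : ∀ i : Fin chevG2.rank,
    (∀ r < 12, act chevG2 (i :: w0) r = act chevG2 (w0 ++ [i]) r) ∧
      act chevG2 [i] (chevG2.simple i) = chevG2.neg (chevG2.simple i) ∧
      act chevG2 w0 (chevG2.neg (chevG2.simple i)) = chevG2.simple i ∧
      chevG2.simple i < 12 ∧ chevG2.neg (chevG2.simple i) < 12 := by
  decide +kernel

theorem normData : ∀ i ∈ ([7, 6] : List ℕ), ∀ s ∈ (List.range 12).filter (fun s => decide (chevG2.IsPosRoot s ∧ s ≠ i)),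
    s ≠ chevG2.neg (chevG2.neg i) ∧ s ≠ chevG2.neg i ∧
      ∀ c ∈ chevG2.commTerms (chevG2.neg i) s,
        c.1 ∈ (List.range 12).filter (fun s => decide (chevG2.IsPosRoot s ∧ s ≠ i)) := by
  decide +kernel

theorem simple_mem : ∀ i : Fin chevG2.rank, chevG2.simple i ∈ ([7, 6] : List ℕ) := by decide +kernel

theorem nW_w0 : (gs F).nW w0 = n0 F := by simp [Sys.nW, w0, n0, mul_assoc]

theorem n0_mem : n0 F ∈ (gs F).Nbar := nW_w0 (F := F) ▸ (gs F).nW_mem_Nbar w0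

theorem n0_simple (i : Fin chevG2.rank) (t : F) : ∃ u : F,
    n0 F * X (chevG2.neg (chevG2.simple i)) t = X (chevG2.simple i) u * n0 F := by
  obtain ⟨a, -, hna⟩ := n0_conjP (F := F)
  obtain ⟨-, -, h3, -, h5⟩ := cellData i
  refine ⟨a (chevG2.neg (chevG2.simple i)) * t, ?_⟩
  have h := hna _ h5 t
  rw [h3] at h
  show n0 F * (gs F).x _ t = (gs F).x _ _ * n0 F
  rw [← h, inv_mul_cancel_right]

theorem simple_nI_inv (i : Fin chevG2.rank) {σ : F} (hσ : σ ≠ 0) : ∃ t : F, ∃ β ∈ (gs F).Bbar,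
    X (chevG2.simple i) σ * ((gs F).nI i)⁻¹ = X (chevG2.neg (chevG2.simple i)) t * β := by
  obtain ⟨len, hR⟩ := (G2Inv.rules F).root
  obtain ⟨φ, hφ⟩ := exists_rankOneHom F (r := chevG2.simple i) (hR.simple_lt i i.2)
  refine ⟨σ⁻¹, (gs F).hEl (chevG2.simple i) σ * X (chevG2.simple i) (-σ⁻¹),
    mul_mem ((gs F).Hbar_le_Bbar ((gs F).hEl_simple_mem i hσ))
      ((gs F).Ubar_le_Bbar ((gs F).x_mem_US (hR.simple_pos i) _)), Subtype.ext ?_⟩
  simp only [Subgroup.coe_mul, Subgroup.coe_inv, coe_X]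
  show (sys F).x (chevG2.simple i) σ * ((sys F).nEl (chevG2.simple i) 1)⁻¹ =
    (sys F).x (chevG2.neg (chevG2.simple i)) σ⁻¹ *
      ((sys F).hEl (chevG2.simple i) σ * (sys F).x (chevG2.simple i) (-σ⁻¹))
  rw [← hφ.upper, ← hφ.upper, ← hφ.lower, ← hφ.mon, ← hφ.dia, ← map_mul, ← map_inv, ← map_mul, ← map_mul]
  congr 1
  rw [mul_inv_eq_iff_eq_mul]
  refine Subtype.ext ?_
  simp only [Matrix.SpecialLinearGroup.coe_mul, diaT_val hσ, monT_val one_ne_zero]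
  simp [upperT, lowerT, Matrix.mul_fin_two]
  field_simp
  simp

theorem exists_top_pair (x : Gam F) : ∃ h ∈ Top0 F, x⁻¹ * h ∈ Top0 F := by
  obtain ⟨len, hR⟩ := (G2Inv.rules F).root
  have hS := G2Inv.rules F
  have hN : ∀ {b : Gam F} {y : Gam F}, b ∈ (gs F).Bbar → y ∈ Top0 F → b * y ∈ Top0 F := by
    rintro b _ hb ⟨c, hc, c', hc', rfl⟩
    exact ⟨b * c, mul_mem hb hc, c', hc', by simp [mul_assoc]⟩
  have step : ∀ (i : Fin chevG2.rank) (x : Gam F), (∃ h ∈ Top0 F, x⁻¹ * h ∈ Top0 F) →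
      ∃ h ∈ Top0 F, ((gs F).nI i * x)⁻¹ * h ∈ Top0 F := by
    rintro i x ⟨h, ⟨b, hb, b', hb', rfl⟩, y⟩
    obtain ⟨hact, hii, -, hs12, hn12⟩ := cellData i
    obtain ⟨c1, hc1, c2, hc2, e | e⟩ := (gs F).mul_cases hS hR i hb (n0_mem (F := F))
    swap
    · refine ⟨(gs F).nI i * (b * n0 F * b'), ⟨c1, hc1, c2 * b', mul_mem hc2 hb', ?_⟩, ?_⟩
      · simp only [← mul_assoc]; rw [e]
      · simpa [mul_assoc] using y
    obtain ⟨k, hk, ek⟩ := (gs F).nW_congr hS hR (v := i :: w0) (w := w0 ++ [i]) hact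
    rw [Sys.nW_cons, Sys.nW_append, nW_w0, Sys.nW_singleton] at ek
    obtain ⟨β, hβdef⟩ : ∃ β, β = c2 * b' := ⟨_, rfl⟩
    have hβ : β ∈ (gs F).Bbar := hβdef ▸ mul_mem hc2 hb'
    have es : (gs F).nI i * (b * n0 F * b') = c1 * k * n0 F * (gs F).nI i * β := by
      rw [← mul_assoc, ← mul_assoc, e, ek, hβdef]
      simp [mul_assoc]
    obtain ⟨b3, hb3, b4, hb4, ey⟩ := y
    obtain ⟨u, hu, hH, hhH, eu⟩ := ((gs F).mem_Bbar hS hR).1 (mul_mem hb4 (inv_mem hβ))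
    obtain ⟨a, ha, t0, rfl⟩ := (gs F).x_simple_split hR i hu
    obtain ⟨cf, hcf, hcc⟩ := (gs F).conjP_Hbar hS hR hhH
    have hc0 : cf (chevG2.simple i) ≠ 0 := right_ne_zero_of_mul_eq_one (hcf _ hs12)
    obtain ⟨t, ht⟩ : ∃ t : F, t0 + cf (chevG2.simple i) * t ≠ 0 := by
      by_cases h0 : t0 = 0
      · exact ⟨1, by simpa [h0] using hc0⟩
      · exact ⟨0, by simpa using h0⟩
    refine ⟨b * n0 F * b' * β⁻¹ * X (chevG2.simple i) t * ((gs F).nI i)⁻¹ |> ((gs F).nI i * ·), ?_, ?_⟩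
    · obtain ⟨cs, -, hcs⟩ := (gs F).conjP_nI hS hR i
      obtain ⟨t', ht'⟩ := n0_simple i (cs (chevG2.simple i) * t)
      have h2 := hcs _ hs12 t
      rw [hii] at h2
      refine ⟨c1 * k * X (chevG2.simple i) t', mul_mem (mul_mem hc1 ((gs F).Hbar_le_Bbar hk))
        ((gs F).Ubar_le_Bbar ((gs F).x_mem_US (hR.simple_pos i) _)), 1, one_mem _, ?_⟩
      calc (gs F).nI i * (b * n0 F * b' * β⁻¹ * X (chevG2.simple i) t * ((gs F).nI i)⁻¹)
          = ((gs F).nI i * (b * n0 F * b')) * β⁻¹ * X (chevG2.simple i) t * ((gs F).nI i)⁻¹ := by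
            simp only [mul_assoc]
        _ = c1 * k * (n0 F * ((gs F).nI i * X (chevG2.simple i) t * ((gs F).nI i)⁻¹)) := by
            rw [es]; simp [mul_assoc]
        _ = _ := by
            rw [h2]
            show c1 * k * (n0 F * X _ _) = _
            rw [ht']; simp [mul_assoc]
    · obtain ⟨t1, β2, hβ2, e2⟩ := simple_nI_inv i ht
      have hX : X (chevG2.neg (chevG2.simple i)) t1 ∈
          Subgroup.normalizer ((gs F).US (posSet chevG2 \ {chevG2.simple i}) : Set (Gam F)) := by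
        refine X_normalizer (fun s hs => ?_) t1
        have hs12' : s < 12 := hs.1.1
        have hne : s ≠ chevG2.simple i := hs.2
        obtain ⟨d1, d2, d3⟩ := normData _ (simple_mem i) s
          (List.mem_filter.2 ⟨List.mem_range.2 hs12', decide_eq_true ⟨hs.1, hne⟩⟩)
        refine ⟨hn12, hs12', d2, d1, fun c hc => ?_⟩
        have := of_decide_eq_true (List.mem_filter.1 (d3 c hc)).2
        exact ⟨this.1, this.2⟩
      have ha' : (X (chevG2.neg (chevG2.simple i)) t1)⁻¹ * a * X (chevG2.neg (chevG2.simple i)) t1 ∈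
          (gs F).Bbar := by
        have := (Subgroup.mem_normalizer_iff.1 (inv_mem hX) a).1 ha
        rw [inv_inv] at this
        exact (gs F).Ubar_le_Bbar ((gs F).US_mono Set.sdiff_subset this)
      obtain ⟨t2, ht2⟩ := n0_simple i t1
      refine ⟨b3 * X (chevG2.simple i) t2,
        mul_mem hb3 ((gs F).Ubar_le_Bbar ((gs F).x_mem_US (hR.simple_pos i) _)),
        (X (chevG2.neg (chevG2.simple i)) t1)⁻¹ * a * X (chevG2.neg (chevG2.simple i)) t1 * β2 *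
          ((gs F).nI i * hH * ((gs F).nI i)⁻¹),
        mul_mem (mul_mem ha' hβ2) ((gs F).Hbar_le_Bbar ((gs F).nI_conj_Hbar hS hR i hhH)), ?_⟩
      have hh := hcc _ hs12 t
      rw [act_nil] at hh
      calc ((gs F).nI i * x)⁻¹ *
            ((gs F).nI i * (b * n0 F * b' * β⁻¹ * X (chevG2.simple i) t * ((gs F).nI i)⁻¹))
          = (x⁻¹ * (b * n0 F * b')) * β⁻¹ * X (chevG2.simple i) t * ((gs F).nI i)⁻¹ := by
            simp [mul_assoc]
        _ = b3 * n0 F * (b4 * β⁻¹) * X (chevG2.simple i) t * ((gs F).nI i)⁻¹ := by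
            rw [ey]; simp [mul_assoc]
        _ = b3 * n0 F * a * (X (chevG2.simple i) t0 *
              (hH * X (chevG2.simple i) t * hH⁻¹)) * hH * ((gs F).nI i)⁻¹ := by
            rw [eu]; simp [mul_assoc]
        _ = b3 * n0 F * a * (X (chevG2.simple i) (t0 + cf (chevG2.simple i) * t) * ((gs F).nI i)⁻¹) *
              ((gs F).nI i * hH * ((gs F).nI i)⁻¹) := by
            rw [hh]
            show b3 * n0 F * a * (X _ t0 * X _ _) * hH * _ = _
            rw [X_add hs12]; simp [mul_assoc]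
        _ = b3 * (n0 F * X (chevG2.neg (chevG2.simple i)) t1) *
              ((X (chevG2.neg (chevG2.simple i)) t1)⁻¹ * a * X (chevG2.neg (chevG2.simple i)) t1) * β2 *
              ((gs F).nI i * hH * ((gs F).nI i)⁻¹) := by
            rw [e2]; simp [mul_assoc]
        _ = _ := by rw [ht2]; simp [mul_assoc]
  obtain ⟨b, hb, w, -, v, hv, rfl⟩ := (gs F).mem_NF hS hR
    (show x ∈ (gs F).Gbar by rw [ChevSteinberg.Gbar_grpSys hS]; trivial)
  have hvB : v ∈ (gs F).Bbar := (gs F).Ubar_le_Bbar ((gs F).US_mono (fun r h => h.1) hv)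
  have hw : ∃ h ∈ Top0 F, ((gs F).nW w)⁻¹ * h ∈ Top0 F := by
    clear hv
    induction w with
    | nil =>
      exact ⟨n0 F, ⟨1, one_mem _, 1, one_mem _, by simp⟩,
        ⟨1, one_mem _, 1, one_mem _, by simp [Sys.nW_nil]⟩⟩
    | cons i w ih => rw [Sys.nW_cons]; exact step i _ ih
  obtain ⟨h, hh, hh'⟩ := hw
  refine ⟨b * h, hN hb hh, ?_⟩
  have := hN (inv_mem hvB) hh'
  simpa [mul_assoc] using this

theorem exists_split_pos {u : Gam F} (hu : u ∈ (gs F).Ubar) : ∃ a ∈ Ur F, ∃ f : F, u = a * psi F (upG f) := by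
  obtain ⟨len, hR⟩ := (G2Inv.rules F).root
  obtain ⟨a, ha, f, e⟩ := (gs F).x_simple_split hR i0 hu
  refine ⟨a, ?_, f, ?_⟩
  · refine Subgroup.closure_induction ?_ ?_ ?_ ?_ ha
    · rintro _ ⟨r, hr, t, rfl⟩
      refine X_mem_Ur ?_ t
      have hd : ∀ r < 12, chevG2.IsPosRoot r → r ≠ chevG2.simple i0 → r ∈ ([6, 8, 9, 10, 11] : List ℕ) := by
        decide +kernel
      exact hd r hr.1.1 hr.1 hr.2
    · exact one_mem _
    · exact fun _ _ _ _ hx hy => mul_mem hx hy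
    · exact fun _ _ hx => inv_mem hx
  · rw [psi_up, e, simple_zero]

theorem exists_psi_of_Hbar {h : Gam F} (hh : h ∈ (gs F).Hbar) : ∃ M : GL (Fin 2) F, h = psi F M := by
  obtain ⟨u, v, rfl⟩ := exists_tor hh
  refine ⟨diaG (u ^ 2 * v) (u * v), ?_⟩
  rw [psi_dia]
  congr 1 <;> (refine Units.ext ?_; have hu := u.ne_zero; have hv := v.ne_zero; push_cast; field_simp)

/-- Some conjugate lies in the open cell of the parabolic. -/
theorem exists_cell (g : Gam F) : ∃ k : Gam F, ∃ v ∈ Vr F, ∃ M : GL (Fin 2) F, ∃ u ∈ Ur F,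
    k * g * k⁻¹ = v * psi F M * u := by
  obtain ⟨len, hR⟩ := (G2Inv.rules F).root
  have hS := G2Inv.rules F
  obtain ⟨h, ⟨b1, hb1, b2, hb2, rfl⟩, b3, hb3, b4, hb4, e⟩ := exists_top_pair g
  have eg : g = b1 * n0 F * b2 * b4⁻¹ * (n0 F)⁻¹ * b3⁻¹ := by
    have e' : g⁻¹ = b3 * n0 F * b4 * (b1 * n0 F * b2)⁻¹ := by rw [← e, mul_inv_cancel_right]
    rw [← inv_inv g, e']
    simp [mul_assoc]
  obtain ⟨β, hβdef⟩ : ∃ β, β = b2 * b4⁻¹ := ⟨_, rfl⟩
  obtain ⟨u1, hu1, h1, hh1, e1⟩ := ((gs F).mem_Bbar hS hR).1 (mul_mem (inv_mem hb3) hb1)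
  obtain ⟨u2, hu2, h2, hh2, e2⟩ := ((gs F).mem_Bbar hS hR).1 (hβdef ▸ mul_mem hb2 (inv_mem hb4) : β ∈ (gs F).Bbar)
  obtain ⟨a1, ha1, f1, rfl⟩ := exists_split_pos hu1
  obtain ⟨a2, ha2, f2, rfl⟩ := exists_split_pos hu2
  obtain ⟨M1, rfl⟩ := exists_psi_of_Hbar hh1
  obtain ⟨M2, rfl⟩ := exists_psi_of_Hbar hh2
  have ev : (n0 F)⁻¹ * a1 * n0 F ∈ Vr F := mem_Ur.1 ha1
  have eu : (psi F (upG f2))⁻¹ * a2 * psi F (upG f2) ∈ Ur F := by
    have := psi_conj_mem_Ur (upG f2)⁻¹ ha2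
    simpa [map_inv] using this
  refine ⟨psi F M2 * β⁻¹ * (b1 * n0 F)⁻¹,
    psi F M2 * ((n0 F)⁻¹ * a1 * n0 F) * (psi F M2)⁻¹, psi_conj_mem M2 ev,
    M2 * tw F (upG f1) * tw F M1 * upG f2, _, eu, ?_⟩
  calc psi F M2 * β⁻¹ * (b1 * n0 F)⁻¹ * g * (psi F M2 * β⁻¹ * (b1 * n0 F)⁻¹)⁻¹
      = psi F M2 * ((n0 F)⁻¹ * (b3⁻¹ * b1) * n0 F) * β * (psi F M2)⁻¹ := by
        rw [eg, hβdef]; simp [mul_assoc]
    _ = psi F M2 * ((n0 F)⁻¹ * a1 * n0 F) * ((n0 F)⁻¹ * psi F (upG f1) * n0 F) *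
          ((n0 F)⁻¹ * psi F M1 * n0 F) * a2 * psi F (upG f2) := by
        rw [e1, e2]; simp [mul_assoc]
    _ = _ := by
        rw [n0_psi_inv, n0_psi_inv]
        simp [map_mul, mul_assoc]

end Cfsg.Agent.G2Sq
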