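import Cfsg.Agent.Linear.Classes
import Cfsg.Agent.RecogA.QuadPoly

/-!
Two by two matrices: products of two elements of the class with trace `T` and determinant `N`.
-/

set_option autoImplicit false

namespace Cfsg.Agent.G2Sq

open Matrix Cfsg.Agent.Linear.Classes
open scoped MatrixGroups

variable {F : Type*} [Field F]

/-- Trace and determinant are `T`, `N`. -/
def InCl (T N : F) (A : GL (Fin 2) F) : Prop :=
  (A : Matrix (Fin 2) (Fin 2) F).trace = T ∧ (A : Matrix (Fin 2) (Fin 2) F).det = N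

/-- In the class or in the inverse class. -/
def InCl2 (T N : F) (A : GL (Fin 2) F) : Prop := InCl T N A ∨ InCl (T / N) N⁻¹ A

/-- `X² - T X + N` has no root. -/
def NoRoot (T N : F) : Prop := ∀ a : F, a ^ 2 - T * a + N ≠ 0

theorem exists_noRoot [Finite F] {N : F} (hN0 : N ≠ 0) (hN1 : N ≠ 1) :
    ∃ T : F, T ≠ 0 ∧ NoRoot T N := by
  classical
  have hFin := Fintype.ofFinite F
  by_contra hno
  simp only [not_exists, not_and, NoRoot, not_forall, not_not] at hno
  choose r hr using hno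
  have hr0 : ∀ T (hT : T ≠ 0), r T hT ≠ 0 := fun T hT e => by
    have := hr T hT
    rw [e] at this
    exact hN0 (by simpa using this)
  let σ : {T : F // T ≠ 0} → {a : F // a ≠ 0} := fun T => ⟨r T.1 T.2, hr0 T.1 T.2⟩
  have hval : ∀ T : {T : F // T ≠ 0}, (T : F) * (σ T : F) = (σ T : F) ^ 2 + N := fun T => by
    show (T : F) * r T.1 T.2 = r T.1 T.2 ^ 2 + N
    linear_combination -hr T.1 T.2
  have hinj : Function.Injective σ := fun a b e => by
    refine Subtype.ext (mul_right_cancel₀ (σ a).2 ?_)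
    rw [hval a]
    conv_rhs => rw [e, hval b]
    rw [e]
  have hsur := Finite.surjective_of_injective hinj
  obtain ⟨T1, h1⟩ := hsur ⟨1, one_ne_zero⟩
  obtain ⟨T2, h2⟩ := hsur ⟨N, hN0⟩
  have e1 := hval T1
  have e2 := hval T2
  rw [h1] at e1
  rw [h2] at e2
  have e : (T1 : F) = (T2 : F) := mul_right_cancel₀ hN0 (by linear_combination N * e1 - e2)
  rw [Subtype.ext e, h2] at h1
  exact hN1 (congrArg Subtype.val h1)

theorem InCl.nonscalar {T N : F} (h : NoRoot T N) {A : GL (Fin 2) F} (hA : InCl T N A) :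
    Nonscalar (A : Matrix (Fin 2) (Fin 2) F) := fun c e => by
  obtain ⟨ht, hd⟩ := hA
  rw [e] at ht hd
  simp [Matrix.trace_fin_two, Matrix.det_fin_two] at ht hd
  exact h c (by rw [← ht, ← hd]; ring)

theorem InCl.isConj [Fintype F] {T N : F} (h : NoRoot T N) {A B : GL (Fin 2) F} (hA : InCl T N A)
    (hB : InCl T N B) : IsConj A B :=
  (isConj_GL_iff (hA.nonscalar h) (hB.nonscalar h)).2 ⟨hA.1.trans hB.1.symm, hA.2.trans hB.2.symm⟩

theorem InCl.inv {T N : F} {A : GL (Fin 2) F} (hA : InCl T N A) : InCl (T / N) N⁻¹ A⁻¹ := by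
  obtain ⟨ht, hd⟩ := hA
  have e : ((A⁻¹ : GL (Fin 2) F) : Matrix (Fin 2) (Fin 2) F) = (A : Matrix (Fin 2) (Fin 2) F)⁻¹ :=
    Matrix.coe_units_inv A
  unfold InCl
  rw [e, Matrix.inv_def, hd, Ring.inverse_eq_inv', Matrix.trace_smul, Matrix.adjugate_fin_two,
    Matrix.det_smul]
  refine ⟨?_, ?_⟩
  · rw [← ht]; simp [Matrix.trace_fin_two, smul_eq_mul, div_eq_inv_mul, add_comm]
  · rw [show (!![(A : Matrix (Fin 2) (Fin 2) F) 1 1, -(A : Matrix (Fin 2) (Fin 2) F) 0 1;
      -(A : Matrix (Fin 2) (Fin 2) F) 1 0, (A : Matrix (Fin 2) (Fin 2) F) 0 0]).det = N from by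
        rw [← hd, Matrix.det_fin_two, Matrix.det_fin_two]; simp; ring]
    have hN : N ≠ 0 := hd ▸ A.det_ne_zero
    simp
    field_simp

/-- The quadratic equation that gives a matrix of the class with a prescribed product trace. -/
theorem exists_zero [Fintype F] {τ T N : F} (hT : T ≠ 0) (hτ : τ ≠ 2) :
    ∃ h g : F, h ^ 2 + τ * h * g + g ^ 2 - T * h - T * g + N = 0 := by
  by_cases h2 : (2 : F) = 0
  · have : CharP F 2 := CharTwo.of_one_ne_zero_of_two_eq_zero one_ne_zero h2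
    obtain ⟨a, ha⟩ := FiniteField.isSquare_of_char_two (ringChar.eq F 2) (-N / τ)
    have hτ0 : τ ≠ 0 := h2 ▸ hτ
    rw [div_eq_iff hτ0] at ha
    exact ⟨a, a, by linear_combination (a ^ 2 - T * a) * h2 - ha⟩
  by_cases hm : τ = -2
  · refine ⟨N / (2 * T), N / (2 * T), ?_⟩
    subst hm
    field_simp
    ring
  have ha : 1 - τ ^ 2 / 4 ≠ 0 := by
    have h4 : (4 : F) ≠ 0 := by rw [show (4 : F) = 2 * 2 by norm_num]; exact mul_ne_zero h2 h2
    intro e
    have e' : (τ - 2) * (τ + 2) = 0 := by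
      field_simp at e
      linear_combination -e
    rcases mul_eq_zero.1 e' with e'' | e''
    · exact hτ (sub_eq_zero.1 e'')
    · exact hm (eq_neg_of_add_eq_zero_left e'')
  have hF : ringChar F ≠ 2 := by
    intro e
    have h0 : ((2 : ℕ) : F) = 0 := by rw [ringChar.spec, e]
    exact h2 (by simpa using h0)
  obtain ⟨u, v, huv⟩ := FiniteField.exists_root_sum_quadratic
    (f := (Polynomial.X ^ 2 : Polynomial F))
    (g := Polynomial.C (1 - τ ^ 2 / 4) * Polynomial.X ^ 2 + Polynomial.C (τ * T / 2 - T) * Polynomial.X +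
      Polynomial.C (N - T ^ 2 / 4))
    (Polynomial.degree_X_pow 2) (Polynomial.degree_quadratic ha)
    (by rw [← Nat.odd_iff, Nat.odd_iff, ← FiniteField.odd_card_of_char_ne_two hF])
  simp only [Polynomial.eval_mul, Polynomial.eval_C, Polynomial.eval_pow, Polynomial.eval_X,
    Polynomial.eval_add] at huv
  refine ⟨u - τ * v / 2 + T / 2, v, ?_⟩
  have h4 : (4 : F) = 2 * 2 := by norm_num
  rw [h4] at huv
  field_simp at huv ⊢
  linear_combination huv

/-- The main computation: some element of the class makes the trace of the product equal to `T`. -/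
theorem exists_trace_mul [Fintype F] {T N : F} (hT : T ≠ 0) (hN : N ≠ 0)
    (M : Matrix (Fin 2) (Fin 2) F) (hd : M.det = 1) (h : M = 1 ∨ Nonscalar M ∧ M.trace ≠ 2) :
    ∃ A : GL (Fin 2) F, InCl T N A ∧ (M * (A : Matrix (Fin 2) (Fin 2) F)).trace = T := by
  rcases h with rfl | ⟨hns, hτ⟩
  · refine ⟨Matrix.GeneralLinearGroup.mkOfDetNeZero (companion T N) (by rwa [det_companion]),
      ⟨trace_companion T N, det_companion T N⟩, ?_⟩
    rw [Matrix.one_mul]
    exact trace_companion T N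
  obtain ⟨P, hP, hMP⟩ := exists_companion hns
  rw [hd] at hMP
  obtain ⟨x, g, hxg⟩ := exists_zero (N := N) hT hτ
  set τ := M.trace
  set B : Matrix (Fin 2) (Fin 2) F := !![T - x, T - g - τ * x; -g, x] with hB
  have hBd : B.det = N := by
    simp [hB, Matrix.det_fin_two]
    linear_combination -hxg
  obtain ⟨h1, h2⟩ := inv_mul_self hP
  have hA : (P * B * P⁻¹).det = N := by
    rw [Matrix.det_mul, Matrix.det_mul, mul_comm P.det, mul_assoc, ← Matrix.det_mul, h2,
      Matrix.det_one, mul_one, hBd]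
  refine ⟨Matrix.GeneralLinearGroup.mkOfDetNeZero (P * B * P⁻¹) (by rwa [hA]), ⟨?_, hA⟩, ?_⟩
  · show (P * B * P⁻¹).trace = T
    rw [Matrix.trace_mul_comm, ← Matrix.mul_assoc, h1, Matrix.one_mul]
    simp [hB, Matrix.trace_fin_two]
  · show (M * (P * B * P⁻¹)).trace = T
    rw [← Matrix.mul_assoc, ← Matrix.mul_assoc, hMP, Matrix.trace_mul_comm, Matrix.mul_assoc,
      ← Matrix.mul_assoc P⁻¹, h1, Matrix.one_mul]
    simp [hB, companion, Matrix.trace_fin_two]

/-- The power of an element of the class that is a scalar. -/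
theorem exists_pow_scalar [Fintype F] {T N : F} (h : NoRoot T N) {A : GL (Fin 2) F}
    (hA : InCl T N A) : (A : Matrix (Fin 2) (Fin 2) F) ^ (Fintype.card F + 1) = N • 1 := by
  set y : Matrix (Fin 2) (Fin 2) F := (A : Matrix (Fin 2) (Fin 2) F)
  have hy : y * y = (-N) • (1 : Matrix (Fin 2) (Fin 2) F) + T • y := by
    obtain ⟨rfl, rfl⟩ := hA
    ext i j
    fin_cases i <;> fin_cases j <;>
      simp [Matrix.mul_apply, Fin.sum_univ_two, Matrix.trace_fin_two, Matrix.det_fin_two, y] <;> ring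
  have : Fact (∀ r : F, r ^ 2 ≠ -N + T * r) := ⟨fun r e => h r (by linear_combination e)⟩
  let ι := QuadraticAlgebra.lift (R := F) (a := -N) (b := T) ⟨y, hy⟩
  have hw : ι ⟨0, 1⟩ = y := by simp [ι]
  have hn : (⟨0, 1⟩ : QuadraticAlgebra F (-N) T) ^ (Fintype.card F + 1) =
      algebraMap F _ N := by
    rw [pow_succ, ← RecogA.star_eq_pow_card]
    ext <;> simp
  rw [← hw, ← map_pow, hn, AlgHom.commutes, Algebra.algebraMap_eq_smul_one]

/-- The twist of `GL₂` by the inverse transpose. -/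
def theta {d : F} (hd : d ≠ 0) : GL (Fin 2) F →* GL (Fin 2) F :=
  MonoidHom.mk' (fun M => Matrix.GeneralLinearGroup.mkOfDetNeZero
    ((M : Matrix (Fin 2) (Fin 2) F).det⁻¹ • !![(M : Matrix (Fin 2) (Fin 2) F) 1 1,
      -(M : Matrix (Fin 2) (Fin 2) F) 1 0 / d;
      -d * (M : Matrix (Fin 2) (Fin 2) F) 0 1, (M : Matrix (Fin 2) (Fin 2) F) 0 0])
    (by
      rw [Matrix.det_smul, Fintype.card_fin]
      refine mul_ne_zero (pow_ne_zero _ (inv_ne_zero M.det_ne_zero)) ?_
      intro e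
      apply M.det_ne_zero
      rw [Matrix.det_fin_two] at e ⊢
      simp at e
      field_simp at e
      linear_combination e))
    (fun A B => by
      refine Units.ext ?_
      show _ • _ = (_ • _) * (_ • _)
      rw [Units.val_mul, Matrix.det_mul, mul_inv, smul_mul_smul_comm]
      congr 1
      ext i j
      fin_cases i <;> fin_cases j <;> simp [Matrix.mul_apply, Fin.sum_univ_two] <;> field_simp <;> ring)

theorem val_theta {d : F} (hd : d ≠ 0) (M : GL (Fin 2) F) :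
    (theta hd M : Matrix (Fin 2) (Fin 2) F) = (M : Matrix (Fin 2) (Fin 2) F).det⁻¹ •
      !![(M : Matrix (Fin 2) (Fin 2) F) 1 1, -(M : Matrix (Fin 2) (Fin 2) F) 1 0 / d;
        -d * (M : Matrix (Fin 2) (Fin 2) F) 0 1, (M : Matrix (Fin 2) (Fin 2) F) 0 0] := rfl

theorem det_theta {d : F} (hd : d ≠ 0) (M : GL (Fin 2) F) :
    (theta hd M : Matrix (Fin 2) (Fin 2) F).det = (M : Matrix (Fin 2) (Fin 2) F).det⁻¹ := by
  have h0 := M.det_ne_zero
  rw [val_theta, Matrix.det_smul, Fintype.card_fin]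
  rw [Matrix.det_fin_two] at h0 ⊢
  rw [Matrix.det_fin_two]
  simp
  field_simp
  ring

theorem theta_theta {d : F} (hd : d ≠ 0) (M : GL (Fin 2) F) : theta hd (theta hd M) = M := by
  refine Units.ext ?_
  rw [val_theta, det_theta, inv_inv, val_theta]
  have h0 := M.det_ne_zero
  ext i j
  fin_cases i <;> fin_cases j <;> simp <;> field_simp

theorem theta_inCl {d T N : F} (hd : d ≠ 0) {A : GL (Fin 2) F} (hA : InCl T N A) :
    InCl (T / N) N⁻¹ (theta hd A) := by
  refine ⟨?_, by rw [det_theta, hA.2]⟩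
  obtain ⟨rfl, rfl⟩ := hA
  rw [val_theta, Matrix.trace_smul]
  simp [Matrix.trace_fin_two, div_eq_inv_mul, add_comm]

theorem InCl2.theta {d T N : F} (hd : d ≠ 0) (hN : N ≠ 0) {A : GL (Fin 2) F} (hA : InCl2 T N A) :
    InCl2 T N (theta hd A) := by
  rcases hA with h | h
  · exact Or.inr (theta_inCl hd h)
  · refine Or.inl ?_
    have := theta_inCl hd h
    rwa [inv_inv, div_div, mul_inv_cancel₀ hN, div_one] at this

theorem InCl2.inv {T N : F} (hN : N ≠ 0) {A : GL (Fin 2) F} (hA : InCl2 T N A) : InCl2 T N A⁻¹ := by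
  rcases hA with h | h
  · exact Or.inr h.inv
  · refine Or.inl ?_
    have := h.inv
    rwa [inv_inv, div_div, mul_inv_cancel₀ hN, div_one] at this

theorem nonscalar_or {M : Matrix (Fin 2) (Fin 2) F} (hd : M.det = 1) :
    Nonscalar M ∨ M = 1 ∨ M = -1 := by
  by_cases h : Nonscalar M
  · exact Or.inl h
  simp only [Nonscalar, not_forall, not_not] at h
  obtain ⟨c, rfl⟩ := h
  simp at hd
  rcases hd with rfl | rfl <;> simp

theorem mul_inCl_one [Fintype F] {T N : F} (hT : T ≠ 0) (hN : N ≠ 0) {M : GL (Fin 2) F}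
    (hd : (M : Matrix (Fin 2) (Fin 2) F).det = 1)
    (h : (M : Matrix (Fin 2) (Fin 2) F) = 1 ∨
      Nonscalar (M : Matrix (Fin 2) (Fin 2) F) ∧ (M : Matrix (Fin 2) (Fin 2) F).trace ≠ 2) :
    ∃ A B, InCl2 T N A ∧ InCl2 T N B ∧ M = A * B := by
  set m : Matrix (Fin 2) (Fin 2) F := (M : Matrix (Fin 2) (Fin 2) F)
  have hM : ((M⁻¹ : GL (Fin 2) F) : Matrix (Fin 2) (Fin 2) F).det = 1 ∧
      ((M⁻¹ : GL (Fin 2) F) : Matrix (Fin 2) (Fin 2) F).trace = m.trace := by
    rw [Matrix.coe_units_inv, Matrix.inv_def, hd, Ring.inverse_one, one_smul, Matrix.adjugate_fin_two]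
    refine ⟨?_, ?_⟩
    · rw [← hd, Matrix.det_fin_two, Matrix.det_fin_two]; simp; ring
    · simp [Matrix.trace_fin_two, m]; ring
  have h' : ((M⁻¹ : GL (Fin 2) F) : Matrix (Fin 2) (Fin 2) F) = 1 ∨
      Nonscalar ((M⁻¹ : GL (Fin 2) F) : Matrix (Fin 2) (Fin 2) F) ∧
        ((M⁻¹ : GL (Fin 2) F) : Matrix (Fin 2) (Fin 2) F).trace ≠ 2 := by
    rcases nonscalar_or hM.1 with hn | h1 | h1
    · rcases h with h | h
      · exact Or.inl (by rw [show M = 1 from Units.ext h, inv_one, Units.val_one])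
      · exact Or.inr ⟨hn, hM.2 ▸ h.2⟩
    · exact Or.inl h1
    · rcases h with h | h
      · exact Or.inl (by rw [show M = 1 from Units.ext h, inv_one, Units.val_one])
      · exfalso
        apply h.1 (-1)
        have hmm : M⁻¹ = -1 := Units.ext (by rw [h1, Units.val_neg, Units.val_one])
        show (M : Matrix (Fin 2) (Fin 2) F) = _
        rw [show M = -1 by rw [← inv_inv M, hmm]; simp]
        simp
  obtain ⟨A, hA, hAt⟩ := exists_trace_mul hT hN _ hM.1 h'
  refine ⟨A, A⁻¹ * M, Or.inl hA, ?_, (mul_inv_cancel_left A M).symm⟩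
  have hC : InCl T N (M⁻¹ * A) := ⟨by rw [Units.val_mul]; exact hAt, by
    rw [Units.val_mul, Matrix.det_mul, hM.1, one_mul, hA.2]⟩
  have := InCl2.inv hN (Or.inl hC : InCl2 T N (M⁻¹ * A))
  rwa [_root_.mul_inv_rev, inv_inv] at this

theorem mul_inCl_sq [Fintype F] {T N : F} (hT : T ≠ 0) (hN : N ≠ 0) {M : GL (Fin 2) F}
    (hd : (M : Matrix (Fin 2) (Fin 2) F).det = N ^ 2)
    (h : N⁻¹ • (M : Matrix (Fin 2) (Fin 2) F) = 1 ∨
      Nonscalar (N⁻¹ • (M : Matrix (Fin 2) (Fin 2) F)) ∧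
        (N⁻¹ • (M : Matrix (Fin 2) (Fin 2) F)).trace ≠ 2) :
    ∃ A B, InCl2 T N A ∧ InCl2 T N B ∧ M = A * B := by
  set m : Matrix (Fin 2) (Fin 2) F := (M : Matrix (Fin 2) (Fin 2) F)
  have hd' : (N⁻¹ • m).det = 1 := by
    rw [Matrix.det_smul, Fintype.card_fin, hd, ← mul_pow, inv_mul_cancel₀ hN, one_pow]
  obtain ⟨A', hA', hAt⟩ := exists_trace_mul hT hN _ hd' h
  set a : Matrix (Fin 2) (Fin 2) F := (A' : Matrix (Fin 2) (Fin 2) F)
  have hA1 : a.adjugate.det = N := by
    rw [Matrix.det_adjugate, Fintype.card_fin]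
    simpa [a] using hA'.2
  let A : GL (Fin 2) F := Matrix.GeneralLinearGroup.mkOfDetNeZero a.adjugate (by rwa [hA1])
  have hA : InCl T N A := ⟨by
    show a.adjugate.trace = T
    rw [← hA'.1, Matrix.adjugate_fin_two]
    simp [Matrix.trace_fin_two, a]; ring, hA1⟩
  let B : GL (Fin 2) F := A⁻¹ * M
  have hB : (B : Matrix (Fin 2) (Fin 2) F) = a * (N⁻¹ • m) := by
    show ((A⁻¹ : GL (Fin 2) F) : Matrix (Fin 2) (Fin 2) F) * m = _
    have hu : (A : Matrix (Fin 2) (Fin 2) F) * (N⁻¹ • a) = 1 := by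
      show a.adjugate * (N⁻¹ • a) = 1
      rw [Matrix.mul_smul, Matrix.adjugate_mul, smul_smul, show a.det = N from hA'.2,
        inv_mul_cancel₀ hN, one_smul]
    rw [Units.inv_eq_of_mul_eq_one_right hu, Matrix.smul_mul, Matrix.mul_smul]
  refine ⟨A, B, Or.inl hA, Or.inl ⟨?_, ?_⟩, (mul_inv_cancel_left A M).symm⟩
  · rw [hB, Matrix.trace_mul_comm, hAt]
  · rw [hB, Matrix.det_mul, hd', mul_one]
    exact hA'.2

end Cfsg.Agent.G2Sq
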