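import Cfsg.Agent.G2Deg.Ops
import Cfsg.Agent.G2Sq.GLTwo

/-!
The Levi subgroup of the long root parabolic of `G₂` as an image of `GL₂`, and the longest Weyl element.
-/

set_option autoImplicit false

namespace Cfsg.Agent.G2Sq

open Cfsg.Lie Cfsg.Agent.ChevGrp Cfsg.Agent.G2Inv Cfsg.Agent.G2Deg
open scoped MatrixGroups

variable {F : Type*} [Field F]

local notation "GL2" => GL (Fin 2) F
local notation "M2" => Matrix (Fin 2) (Fin 2) F

/-- Upper unitriangular. -/
def upG (t : F) : GL2 := Matrix.GeneralLinearGroup.mkOfDetNeZero !![1, t; 0, 1] (by simp)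

/-- Lower unitriangular. -/
def lowG (t : F) : GL2 := Matrix.GeneralLinearGroup.mkOfDetNeZero !![1, 0; t, 1] (by simp)

/-- Diagonal. -/
def diaG (x y : Fˣ) : GL2 :=
  Matrix.GeneralLinearGroup.mkOfDetNeZero !![(x : F), 0; 0, (y : F)] (by simp)

theorem val_upG (t : F) : (upG t : M2) = !![1, t; 0, 1] := rfl
theorem val_lowG (t : F) : (lowG t : M2) = !![1, 0; t, 1] := rfl
theorem val_diaG (x y : Fˣ) : (diaG x y : M2) = !![(x : F), 0; 0, (y : F)] := rfl

/-- `SL₂` is generated by the unitriangular elements. -/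
theorem sl_induction (S : Submonoid SL(2, F)) (hu : ∀ t, upperT t ∈ S) (hl : ∀ t, lowerT t ∈ S)
    (g : SL(2, F)) : g ∈ S := by
  refine Chev.RankOne.mem_of_upper_weyl hu ?_ g
  have e : (Chev.RankOne.weyl : SL(2, F)) = upperT 1 * lowerT (-1) * upperT 1 := Subtype.ext (by
    rw [Matrix.SpecialLinearGroup.coe_mul, Matrix.SpecialLinearGroup.coe_mul]
    simp [Chev.RankOne.weyl, upperT, lowerT, Matrix.mul_fin_two])
  rw [e]
  exact mul_mem (mul_mem (hu 1) (hl _)) (hu 1)

/-- Conjugation of `SL₂` by `diag(d, 1)`, on elements. -/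
def conjDFun (d : Fˣ) (g : SL(2, F)) : SL(2, F) :=
  ⟨!![g.1 0 0, (d : F) * g.1 0 1; g.1 1 0 / d, g.1 1 1], by
      have := g.2
      rw [Matrix.det_fin_two] at this
      have hd : (d : F) ≠ 0 := d.ne_zero
      simp [Matrix.det_fin_two]
      field_simp
      linear_combination this⟩

theorem val_conjDFun (d : Fˣ) (g : SL(2, F)) :
    (conjDFun d g : M2) = !![g.1 0 0, (d : F) * g.1 0 1; g.1 1 0 / d, g.1 1 1] := rfl

/-- Conjugation of `SL₂` by `diag(d, 1)`. -/
def conjD (d : Fˣ) : SL(2, F) →* SL(2, F) :=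
  MonoidHom.mk' (conjDFun d) (fun a b => by
    refine Subtype.ext ?_
    have hd : (d : F) ≠ 0 := d.ne_zero
    rw [Matrix.SpecialLinearGroup.coe_mul, val_conjDFun, val_conjDFun, val_conjDFun,
      Matrix.SpecialLinearGroup.coe_mul]
    ext i j
    fin_cases i <;> fin_cases j <;> simp [Matrix.mul_apply, Fin.sum_univ_two] <;> field_simp)

theorem val_conjD (d : Fˣ) (g : SL(2, F)) :
    (conjD d g : M2) = !![g.1 0 0, (d : F) * g.1 0 1; g.1 1 0 / d, g.1 1 1] := rfl

/-- The determinant as a unit. -/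
def detU (M : GL2) : Fˣ := Units.mk0 (M : M2).det M.det_ne_zero

/-- The `SL₂` part. -/
def slPart (M : GL2) : SL(2, F) :=
  ⟨!![(M : M2) 0 0 / (M : M2).det, (M : M2) 0 1; (M : M2) 1 0 / (M : M2).det, (M : M2) 1 1], by
    have hd := M.det_ne_zero
    rw [Matrix.det_fin_two] at hd ⊢
    simp [Matrix.det_fin_two]
    field_simp⟩

theorem exists_sl_hom (F : Type*) [Field F] :
    ∃ φ : SL(2, F) →* Gam F, (∀ t, φ (upperT t) = X 7 t) ∧ (∀ t, φ (lowerT t) = X 4 t) ∧
      ∀ a : Fˣ, φ (diaT (a : F)) = tor (a ^ 2) (a ^ 3)⁻¹ := by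
  obtain ⟨φ, hφ⟩ := exists_rankOneHom F (r := 7) (by decide)
  have hmem : ∀ g, φ g ∈ chevG2.group F := by
    intro g
    have hS : g ∈ (Submonoid.comap φ (chevG2.group F).toSubmonoid) :=
      sl_induction _ (fun t => by
          show φ (upperT t) ∈ chevG2.group F
          rw [hφ.upper]
          exact (X 7 t).2)
        (fun t => by
          show φ (lowerT t) ∈ chevG2.group F
          rw [hφ.lower]
          exact (X (chevG2.neg 7) t).2) g
    exact hS
  refine ⟨φ.codRestrict _ hmem, fun t => Subtype.ext (hφ.upper t), fun t => Subtype.ext ?_, fun a => ?_⟩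
  · rw [show (4 : ℕ) = chevG2.neg 7 from negData.1.symm]
    exact hφ.lower t
  · refine Subtype.ext ?_
    show φ (diaT (a : F)) = _
    rw [hφ.dia, coe_tor]
    have h7 : chevG2.simple i0 = 7 := simple_zero
    have hne : (a : F) ≠ 0 := a.ne_zero
    obtain ⟨len, hR⟩ := (G2Inv.rules F).root
    rw [show ((a ^ 2 : Fˣ) : F) ^ 2 * (((a ^ 3)⁻¹ : Fˣ) : F) = (a : F) by push_cast; field_simp,
      show ((a ^ 2 : Fˣ) : F) ^ 3 * (((a ^ 3)⁻¹ : Fˣ) : F) ^ 2 = 1 by push_cast; field_simp]
    rw [hpair, (sys F).hEl_one hR (hR.simple_lt _ i1.2), mul_one, h7]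

/-- The rank one homomorphism of the short simple root. -/
noncomputable def phi (F : Type*) [Field F] : SL(2, F) →* Gam F := (exists_sl_hom F).choose

theorem phi_upper (t : F) : phi F (upperT t) = X 7 t := (exists_sl_hom F).choose_spec.1 t
theorem phi_lower (t : F) : phi F (lowerT t) = X 4 t := (exists_sl_hom F).choose_spec.2.1 t
theorem phi_dia (a : Fˣ) : phi F (diaT (a : F)) = tor (a ^ 2) (a ^ 3)⁻¹ :=
  (exists_sl_hom F).choose_spec.2.2 a

theorem tor_inv (u v : Fˣ) : (tor u v)⁻¹ = tor u⁻¹ v⁻¹ := by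
  refine inv_eq_of_mul_eq_one_right ?_
  rw [tor_mul, mul_inv_cancel, mul_inv_cancel, tor_one]

theorem tor_phi (d : Fˣ) (g : SL(2, F)) :
    tor d d⁻¹ * phi F g * (tor d d⁻¹)⁻¹ = phi F (conjD d g) := by
  have hS : g ∈ (MonoidHom.eqLocusM ((MulAut.conj (tor d d⁻¹)).toMonoidHom.comp (phi F))
      ((phi F).comp (conjD d))) := by
    have hd : (d : F) ≠ 0 := d.ne_zero
    refine sl_induction _ (fun t => ?_) (fun t => ?_) g
    · show tor d d⁻¹ * phi F (upperT t) * (tor d d⁻¹)⁻¹ = phi F (conjD d (upperT t))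
      rw [phi_upper, tor_conj _ _ (by decide), cofData.1,
        show conjD d (upperT t) = upperT ((d : F) * t) from Subtype.ext (by rw [val_conjD]; simp [upperT]),
        phi_upper]
      simp
    · show tor d d⁻¹ * phi F (lowerT t) * (tor d d⁻¹)⁻¹ = phi F (conjD d (lowerT t))
      rw [phi_lower, tor_conj _ _ (by decide), cofData.2.2.2.2.2.2.1,
        show conjD d (lowerT t) = lowerT (t / d) from Subtype.ext (by rw [val_conjD]; simp [lowerT]),
        phi_lower]
      simp [div_eq_inv_mul]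
  exact hS

/-- The Levi homomorphism. -/
noncomputable def psi (F : Type*) [Field F] : GL (Fin 2) F →* Gam F :=
  MonoidHom.mk' (fun M => phi F (slPart M) * tor (detU M) (detU M)⁻¹) (fun A B => by
    have hdet : detU (A * B) = detU A * detU B := Units.ext (by simp [detU])
    have hsl : slPart (A * B) = slPart A * conjD (detU A) (slPart B) := by
      refine Subtype.ext ?_
      have hA := A.det_ne_zero
      have hB := B.det_ne_zero
      rw [Matrix.SpecialLinearGroup.coe_mul, val_conjD]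
      ext i j
      fin_cases i <;> fin_cases j <;>
        simp [slPart, detU, Matrix.mul_apply, Fin.sum_univ_two] <;> field_simp
    rw [hsl, hdet, mul_inv, ← tor_mul, map_mul, ← tor_phi]
    simp [mul_assoc])

theorem psi_apply (M : GL2) : psi F M = phi F (slPart M) * tor (detU M) (detU M)⁻¹ := rfl

theorem detU_eq_one {M : GL2} (h : (M : M2).det = 1) : detU M = 1 := Units.ext h

theorem psi_up (t : F) : psi F (upG t) = X 7 t := by
  rw [psi_apply, detU_eq_one (by simp [val_upG]), inv_one, tor_one, mul_one,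
    show slPart (upG t) = upperT t from Subtype.ext (by simp [slPart, val_upG, upperT]), phi_upper]

theorem psi_low (t : F) : psi F (lowG t) = X 4 t := by
  rw [psi_apply, detU_eq_one (by simp [val_lowG]), inv_one, tor_one, mul_one,
    show slPart (lowG t) = lowerT t from Subtype.ext (by simp [slPart, val_lowG, lowerT]), phi_lower]

theorem psi_dia (x y : Fˣ) : psi F (diaG x y) = tor (x / y) (y ^ 2 / x) := by
  rw [psi_apply, show detU (diaG x y) = x * y from Units.ext (by simp [detU, val_diaG]),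
    show slPart (diaG x y) = diaT ((y⁻¹ : Fˣ) : F) from Subtype.ext (by
      rw [diaT_val (Units.ne_zero _)]
      simp [slPart, val_diaG]
      field_simp),
    phi_dia, tor_mul]
  congr 1 <;> simp [div_eq_mul_inv, pow_succ] <;> simp [mul_comm, mul_left_comm, mul_assoc]

/-- Induction over the generators. -/
theorem gl_induction (P : GL2 → Prop) (hm : ∀ A B, P A → P B → P (A * B)) (hu : ∀ t, P (upG t))
    (hl : ∀ t, P (lowG t)) (hd : ∀ x : Fˣ, P (diaG x 1)) (M : GL2) : P M := by
  let S : Submonoid SL(2, F) :=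
    { carrier := {g | P (Matrix.SpecialLinearGroup.toGL g)}
      one_mem' := by
        have := hu 0
        show P (Matrix.SpecialLinearGroup.toGL 1)
        rwa [map_one, show (1 : GL2) = upG 0 from Units.ext (by
          simp [val_upG, Matrix.one_fin_two])]
      mul_mem' := fun {a b} ha hb => by
        show P (Matrix.SpecialLinearGroup.toGL (a * b))
        rw [map_mul]
        exact hm _ _ ha hb }
  have hs : P (Matrix.SpecialLinearGroup.toGL (slPart M)) :=
    sl_induction S (fun t => by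
      show P (Matrix.SpecialLinearGroup.toGL (upperT t))
      rw [show Matrix.SpecialLinearGroup.toGL (upperT t) = upG t from Units.ext rfl]
      exact hu t) (fun t => by
      show P (Matrix.SpecialLinearGroup.toGL (lowerT t))
      rw [show Matrix.SpecialLinearGroup.toGL (lowerT t) = lowG t from Units.ext rfl]
      exact hl t) (slPart M)
  have e : M = Matrix.SpecialLinearGroup.toGL (slPart M) * diaG (detU M) 1 := by
    refine Units.ext ?_
    have := M.det_ne_zero
    show (M : M2) = (slPart M : M2) * (diaG (detU M) 1 : M2)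
    ext i j
    fin_cases i <;> fin_cases j <;>
      simp [slPart, val_diaG, detU, Matrix.mul_apply, Fin.sum_univ_two] <;> field_simp
  rw [e]
  exact hm _ _ hs (hd _)

/-! ### The longest element -/

/-- The longest monomial element. -/
noncomputable def n0 (F : Type*) [Field F] : Gam F := na F * nb F * na F * nb F * na F * nb F

theorem w0Data : ∀ r < 12, act chevG2 w0 r = 11 - r := by decide +kernel

theorem n0_conjP : (gs F).ConjP (n0 F) w0 := by
  obtain ⟨len, hR⟩ := (G2Inv.rules F).root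
  have h := (gs F).conjP_nW (G2Inv.rules F) hR w0
  have e : (gs F).nW w0 = n0 F := by simp [Sys.nW, w0, n0, mul_assoc]
  rwa [e] at h

theorem n0_tor (u v : Fˣ) : n0 F * tor u v * (n0 F)⁻¹ = tor u⁻¹ v⁻¹ := by
  have ea : ∀ u v : Fˣ, na F * tor u v = tor u⁻¹ (u ^ 3 * v) * na F := fun u v => by
    rw [← na_tor, inv_mul_cancel_right]
  have eb : ∀ u v : Fˣ, nb F * tor u v = tor (u * v) v⁻¹ * nb F := fun u v => by
    rw [← nb_tor, inv_mul_cancel_right]
  have key : n0 F * tor u v = tor u⁻¹ v⁻¹ * n0 F := by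
    have la : ∀ (u v : Fˣ) (z : Gam F), na F * (tor u v * z) = tor u⁻¹ (u ^ 3 * v) * (na F * z) :=
      fun u v z => by rw [← mul_assoc, ea, mul_assoc]
    have lb : ∀ (u v : Fˣ) (z : Gam F), nb F * (tor u v * z) = tor (u * v) v⁻¹ * (nb F * z) :=
      fun u v z => by rw [← mul_assoc, eb, mul_assoc]
    simp only [n0, mul_assoc, eb, la, lb]
    congr 1
    apply congrArg₂ tor <;>
      (refine Units.ext ?_; have hu := u.ne_zero; have hv := v.ne_zero; push_cast; field_simp)
  rw [key, mul_inv_cancel_right]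

theorem exists_c7 (F : Type*) [Field F] : ∃ c : Fˣ, (∀ t : F, n0 F * X 7 t * (n0 F)⁻¹ = X 4 ((c : F) * t)) ∧
    ∀ t : F, n0 F * X 4 t * (n0 F)⁻¹ = X 7 ((c : F)⁻¹ * t) := by
  obtain ⟨a, ha, hna⟩ := n0_conjP (F := F)
  have h7 := ha 7 (by decide)
  rw [negData.1] at h7
  refine ⟨Units.mk0 (a 7) (right_ne_zero_of_mul_eq_one h7), fun t => ?_, fun t => ?_⟩
  · rw [hna 7 (by decide), w0Data 7 (by decide)]
    rfl
  · rw [hna 4 (by decide), w0Data 4 (by decide), Units.val_mk0, ← eq_inv_of_mul_eq_one_left h7]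

/-- The constant of the twist. -/
noncomputable def c7 (F : Type*) [Field F] : Fˣ := (exists_c7 F).choose

theorem neg_c7_ne : (-(c7 F : F)) ≠ 0 := neg_ne_zero.2 (c7 F).ne_zero

/-- The twist. -/
noncomputable abbrev tw (F : Type*) [Field F] : GL (Fin 2) F →* GL (Fin 2) F := theta (neg_c7_ne (F := F))

theorem n0_psi (M : GL2) : n0 F * psi F M * (n0 F)⁻¹ = psi F (tw F M) := by
  refine gl_induction (fun M => n0 F * psi F M * (n0 F)⁻¹ = psi F (tw F M)) ?_ ?_ ?_ ?_ M
  · intro A B hA hB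
    rw [map_mul, map_mul, map_mul, ← hA, ← hB]
    simp [mul_assoc]
  · intro t
    have e : tw F (upG t) = lowG ((c7 F : F) * t) := Units.ext (by
      rw [val_theta, val_lowG]; simp [val_upG])
    rw [e, psi_up, psi_low]
    exact (exists_c7 F).choose_spec.1 t
  · intro t
    have e : tw F (lowG t) = upG ((c7 F : F)⁻¹ * t) := Units.ext (by
      rw [val_theta, val_upG]; simp [val_lowG, div_eq_inv_mul])
    rw [e, psi_up, psi_low]
    exact (exists_c7 F).choose_spec.2 t
  · intro x
    have e : tw F (diaG x 1) = diaG x⁻¹ 1 := Units.ext (by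
      rw [val_theta]
      simp [val_diaG])
    rw [e, psi_dia, psi_dia, n0_tor]
    congr 1 <;> simp

theorem n0_psi_inv (M : GL2) : (n0 F)⁻¹ * psi F M * n0 F = psi F (tw F M) := by
  have h := n0_psi (tw F M)
  rw [theta_theta] at h
  rw [← h]
  simp [mul_assoc]

/-! ### The two radicals -/

/-- The roots of the opposite radical. -/
def vSet : Set ℕ := {r | r ∈ ([0, 1, 2, 3, 5] : List ℕ)}

/-- The opposite radical. -/
noncomputable def Vr (F : Type*) [Field F] : Subgroup (Gam F) := (gs F).US vSet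

/-- The radical. -/
noncomputable def Ur (F : Type*) [Field F] : Subgroup (Gam F) :=
  (Vr F).map (MulAut.conj (n0 F)).toMonoidHom

theorem stabData : ∀ r ∈ ([4, 7] : List ℕ), ∀ s ∈ ([0, 1, 2, 3, 5] : List ℕ),
    r < 12 ∧ s < 12 ∧ s ≠ r ∧ s ≠ chevG2.neg r ∧
      ∀ c ∈ chevG2.commTerms r s, c.1 ∈ ([0, 1, 2, 3, 5] : List ℕ) := by
  decide +kernel

/-- A root element normalises a set of roots that its commutators do not leave. -/
theorem X_normalizer {T : Set ℕ} {r : ℕ}
    (h : ∀ s ∈ T, r < 12 ∧ s < 12 ∧ s ≠ r ∧ s ≠ chevG2.neg r ∧ ∀ c ∈ chevG2.commTerms r s, c.1 ∈ T)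
    (t : F) : X r t ∈ Subgroup.normalizer ((gs F).US T : Set (Gam F)) := by
  have key : ∀ t : F, ∀ s ∈ T, ∀ u : F, X r t * X s u * (X r t)⁻¹ ∈ (gs F).US T := by
    intro t s hs u
    obtain ⟨a, b, c, d, e⟩ := h s hs
    rw [cj a b c d]
    refine mul_mem ((gs F).x_mem_US hs _) (list_prod_mem fun g hg => ?_)
    simp only [cjWord, List.map_map, List.mem_map] at hg
    obtain ⟨q, hq, rfl⟩ := hg
    exact (gs F).x_mem_US (e q hq) _
  refine (gs F).mem_normalizer_US (key t) fun s hs u => ?_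
  obtain ⟨a, -⟩ := h s hs
  simpa [X_inv a] using key (-t) s hs u

theorem psi_normalizer (M : GL2) : psi F M ∈ Subgroup.normalizer (Vr F : Set (Gam F)) := by
  obtain ⟨len, hR⟩ := (G2Inv.rules F).root
  refine gl_induction (fun M => psi F M ∈ Subgroup.normalizer (Vr F : Set (Gam F))) ?_ ?_ ?_ ?_ M
  · intro A B hA hB
    rw [map_mul]
    exact mul_mem hA hB
  · intro t
    rw [psi_up]
    exact X_normalizer (fun s hs => stabData 7 (by simp) s hs) t
  · intro t
    rw [psi_low]
    exact X_normalizer (fun s hs => stabData 4 (by simp) s hs) t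
  · intro x
    rw [psi_dia]
    exact (gs F).Hbar_le_normalizer_US (G2Inv.rules F) hR
      (T := vSet) (fun s hs => (stabData 7 (by simp) s hs).2.1) (tor_mem _ _)

theorem psi_conj_mem (M : GL2) {v : Gam F} (hv : v ∈ Vr F) : psi F M * v * (psi F M)⁻¹ ∈ Vr F :=
  (Subgroup.mem_normalizer_iff.1 (psi_normalizer M) v).1 hv

theorem mem_Ur {u : Gam F} : u ∈ Ur F ↔ (n0 F)⁻¹ * u * n0 F ∈ Vr F := by
  constructor
  · rintro ⟨v, hv, rfl⟩
    show (n0 F)⁻¹ * (n0 F * v * (n0 F)⁻¹) * n0 F ∈ _
    simpa [mul_assoc] using hv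
  · exact fun h => ⟨_, h, by simp [mul_assoc]⟩

theorem psi_conj_mem_Ur (M : GL2) {u : Gam F} (hu : u ∈ Ur F) :
    psi F M * u * (psi F M)⁻¹ ∈ Ur F := by
  rw [mem_Ur] at hu ⊢
  have h := psi_conj_mem (tw F M) hu
  rw [← n0_psi_inv] at h
  simpa [mul_assoc] using h

theorem X_mem_Ur {r : ℕ} (hr : r ∈ ([6, 8, 9, 10, 11] : List ℕ)) (t : F) : X r t ∈ Ur F := by
  obtain ⟨len, hR⟩ := (G2Inv.rules F).root
  have hr12 : r < 12 := by simp at hr; omega
  obtain ⟨a, ha, hna⟩ := (n0_conjP (F := F)).inv hR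
  rw [mem_Ur]
  have h := hna r hr12 t
  rw [inv_inv] at h
  rw [h]
  refine (gs F).x_mem_US ?_ _
  have : ∀ r ∈ ([6, 8, 9, 10, 11] : List ℕ), act chevG2 w0.reverse r ∈ ([0, 1, 2, 3, 5] : List ℕ) := by
    decide +kernel
  exact this r hr

end Cfsg.Agent.G2Sq
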