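import Cfsg.Agent.G2Sq.VCoord
import Cfsg.Agent.G2Sq.Cell

/-!
A semisimple class `C` of `G₂(q)`, `q ≥ 3`, with every non-identity element in `C · C`.
-/

set_option autoImplicit false

namespace Cfsg.Agent.G2Sq

open Cfsg.Lie Cfsg.Agent.ChevGrp Cfsg.Agent.G2Inv Cfsg.Agent.G2Deg
open Cfsg.Agent.Linear.Classes (Nonscalar companion exists_companion)
open scoped MatrixGroups

variable {F : Type*} [Field F]

local notation "GL2" => GL (Fin 2) F
local notation "M2" => Matrix (Fin 2) (Fin 2) F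

/-- A product of two conjugates of `x`. -/
def Good (x g : Gam F) : Prop := ∃ u v : Gam F, g = (u * x * u⁻¹) * (v * x * v⁻¹)

theorem Good.conj {x g : Gam F} (k : Gam F) (h : Good x (k * g * k⁻¹)) : Good x g := by
  obtain ⟨u, v, e⟩ := h
  refine ⟨k⁻¹ * u, k⁻¹ * v, ?_⟩
  calc g = k⁻¹ * (k * g * k⁻¹) * k := by simp [mul_assoc]
    _ = _ := by rw [e]; simp [mul_assoc]

theorem Good.inv {x g : Gam F} (hx : IsConj x x⁻¹) (h : Good x g⁻¹) : Good x g := by
  obtain ⟨w, hw⟩ := isConj_iff.1 hx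
  obtain ⟨u, v, e⟩ := h
  refine ⟨v * w, u * w, ?_⟩
  calc g = (g⁻¹)⁻¹ := (inv_inv g).symm
    _ = (v * x⁻¹ * v⁻¹) * (u * x⁻¹ * u⁻¹) := by rw [e]; simp [mul_assoc]
    _ = _ := by rw [← hw]; simp [mul_assoc]

theorem good_of_isConj {x a b : Gam F} (ha : IsConj x a) (hb : IsConj x b) : Good x (a * b) := by
  obtain ⟨u, rfl⟩ := isConj_iff.1 ha
  obtain ⟨v, rfl⟩ := isConj_iff.1 hb
  exact ⟨u, v, rfl⟩

/-- `g` has a conjugate with the given data in the open cell. -/
def Shape (g : Gam F) (a b c d e : F) (M : GL (Fin 2) F) : Prop :=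
  ∃ k : Gam F, ∃ u ∈ Ur F, k * g * k⁻¹ = vel a b c d e * psi F M * u

theorem psi_X0 (M : GL2) (t : F) : psi F M * X 0 t * (psi F M)⁻¹ = X 0 (((M : M2).det)⁻¹ * t) := by
  refine gl_induction (fun M => ∀ t : F, psi F M * X 0 t * (psi F M)⁻¹ = X 0 (((M : M2).det)⁻¹ * t))
    ?_ ?_ ?_ ?_ M t
  · intro A B hA hB t
    rw [map_mul, show psi F A * psi F B * X 0 t * (psi F A * psi F B)⁻¹ =
      psi F A * (psi F B * X 0 t * (psi F B)⁻¹) * (psi F A)⁻¹ by simp [mul_assoc], hB, hA, Units.val_mul,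
      Matrix.det_mul, mul_inv, mul_assoc]
  · intro s t
    rw [psi_up, commV (by simp) s t, mul_inv_cancel_right]
    simp [val_upG]
  · intro s t
    rw [psi_low, commV (by simp) s t, mul_inv_cancel_right]
    simp [val_lowG]
  · intro x t
    rw [psi_dia, tor_conj _ _ (by decide), cofData.2.2.2.2.2.2.2.2.2]
    have hx := x.ne_zero
    rw [val_diaG]
    congr 1
    simp [zpow_neg, zpow_ofNat]
    left
    field_simp

theorem na_eq_psi : na F = psi F (upG 1 * lowG (-1) * upG 1) := by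
  rw [map_mul, map_mul, psi_up, psi_low]
  show (gs F).nEl (chevG2.simple i0) 1 = _
  rw [simple_zero, Sys.nEl, negData.1, inv_one]

theorem Shape.conjL {g : Gam F} {a b c d e a' b' c' d' e' : F} {M : GL2} (h : Shape g a b c d e M) (P : GL2)
    (hP : psi F P * vel a b c d e * (psi F P)⁻¹ = vel a' b' c' d' e') :
    Shape g a' b' c' d' e' (P * M * P⁻¹) := by
  obtain ⟨k, u, hu, hk⟩ := h
  refine ⟨psi F P * k, psi F P * u * (psi F P)⁻¹, psi_conj_mem_Ur P hu, ?_⟩
  calc psi F P * k * g * (psi F P * k)⁻¹ = psi F P * (k * g * k⁻¹) * (psi F P)⁻¹ := by simp [mul_assoc]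
    _ = _ := by rw [hk, ← hP, map_mul, map_mul, map_inv]; simp [mul_assoc]

theorem Shape.na {g : Gam F} {a b c d e : F} {M : GL2} (h : Shape g a b c d e M) :
    ∃ k1 k2 k3 k5 : F, k1 ≠ 0 ∧ k2 ≠ 0 ∧ k3 ≠ 0 ∧ k5 ≠ 0 ∧ ∃ (a' : F) (M' : GL2),
      Shape g a' (k5 * e) (k3 * d) (k2 * c) (k1 * b) M' := by
  obtain ⟨k, hk, hv⟩ := na_vel (F := F)
  obtain ⟨a', ha'⟩ := hv a b c d e
  exact ⟨k 1, k 2, k 3, k 5, hk 1 (by decide), hk 2 (by decide), hk 3 (by decide), hk 5 (by decide), a', _,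
    h.conjL _ (by rw [← na_eq_psi]; exact ha')⟩

/-- Moving by a root element of the long simple root. -/
theorem Shape.move {g : Gam F} {a b c d e : F} {M : GL2} (h : Shape g a b c d e M) (s : F) (τ : Fˣ)
    (hτ : (τ : F) = 1 + s * e) : ∃ a' : F,
    Shape g a' (b - s * a - s ^ 2 * d ^ 3 - (-(s * d)) ^ 3 * (e / τ))
      (c - s * d ^ 2 + (-(s * d)) ^ 2 * (e / τ)) (d + -(s * d) * (e / τ)) (e / τ)
      (lowG (-(s * d)) * diaG 1 τ * M) := by
  obtain ⟨k, u, hu, hk⟩ := h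
  obtain ⟨a1, h6⟩ := X6_vel s a b c d
  obtain ⟨a2, h4⟩ := X4_vel (-(s * d)) 0 0 0 0 (e / τ)
  have hX6 : ∀ t : F, X 6 t ∈ Ur F := fun t => X_mem_Ur (by simp) t
  have hsplit : vel a b c d e = vel a b c d 0 * X 5 e := by
    rw [X5_eq, vel_mul]; congr 1 <;> ring
  have h4' : X 4 (-(s * d)) * X 5 (e / τ) =
      vel a2 (0 - 3 * -(s * d) * 0 - 3 * (-(s * d)) ^ 2 * 0 - (-(s * d)) ^ 3 * (e / τ))
        (0 + 2 * -(s * d) * 0 + (-(s * d)) ^ 2 * (e / τ)) (0 + -(s * d) * (e / τ)) (e / τ) * X 4 (-(s * d)) := by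
    rw [← h4, ← X5_eq, inv_mul_cancel_right]
  refine ⟨a1 + a2 - s ^ 2 * d ^ 3 * (e / τ) * 3, X 6 s * k,
    ((psi F M)⁻¹ * X 6 (s / τ) * psi F M) * u * (X 6 s)⁻¹, ?_, ?_⟩
  · refine mul_mem (mul_mem ?_ hu) (inv_mem (hX6 _))
    simpa [map_inv] using psi_conj_mem_Ur M⁻¹ (hX6 (s / τ))
  · calc X 6 s * k * g * (X 6 s * k)⁻¹ = X 6 s * (k * g * k⁻¹) * (X 6 s)⁻¹ := by simp [mul_assoc]
      _ = (X 6 s * vel a b c d 0 * (X 6 s)⁻¹) * (X 6 s * X 5 e) * psi F M * u * (X 6 s)⁻¹ := by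
          rw [hk, hsplit]; simp [mul_assoc]
      _ = vel a1 (b - s * a - s ^ 2 * d ^ 3) (c - s * d ^ 2) d 0 * (X 4 (-(s * d)) * X 5 (e / τ)) *
            psi F (diaG 1 τ) * X 6 (s / τ) * psi F M * u * (X 6 s)⁻¹ := by
          rw [h6, X6_X5 s e τ hτ]; simp [mul_assoc]
      _ = (vel a1 (b - s * a - s ^ 2 * d ^ 3) (c - s * d ^ 2) d 0 *
            vel a2 (0 - 3 * -(s * d) * 0 - 3 * (-(s * d)) ^ 2 * 0 - (-(s * d)) ^ 3 * (e / τ))
              (0 + 2 * -(s * d) * 0 + (-(s * d)) ^ 2 * (e / τ)) (0 + -(s * d) * (e / τ)) (e / τ)) *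
            psi F (lowG (-(s * d)) * diaG 1 τ * M) *
            ((psi F M)⁻¹ * X 6 (s / τ) * psi F M * u * (X 6 s)⁻¹) := by
          rw [h4', map_mul, map_mul, psi_low]; simp [mul_assoc]
      _ = _ := by
          rw [vel_mul]
          congr 3 <;> ring

/-- From a non-trivial element of the radical reach a coordinate at the negative of the long simple root. -/
theorem Shape.reach (h3 : ∀ z : F, ∃ s : F, s ≠ 0 ∧ s ≠ z) {g : Gam F} {a b c d e : F} {M : GL2}
    (h : Shape g a b c d e M) (hne : a ≠ 0 ∨ b ≠ 0 ∨ c ≠ 0 ∨ d ≠ 0 ∨ e ≠ 0) :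
    ∃ a b c d e M, e ≠ 0 ∧ Shape g a b c d e M := by
  have stepB : ∀ {a b c d e : F} {M : GL2}, Shape g a b c d e M → b ≠ 0 →
      ∃ a b c d e M, e ≠ 0 ∧ Shape g a b c d e M := by
    intro a b c d e M h hb
    obtain ⟨k1, k2, k3, k5, h1, -, -, -, a', M', h'⟩ := h.na
    exact ⟨_, _, _, _, _, _, mul_ne_zero h1 hb, h'⟩
  have stepD : ∀ {a c d : F} {M : GL2}, Shape g a 0 c d 0 M → (d ≠ 0 ∨ a ≠ 0) →
      ∃ a b c d e M, e ≠ 0 ∧ Shape g a b c d e M := by
    intro a c d M h hd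
    obtain ⟨s, hs, hne⟩ : ∃ s : F, s ≠ 0 ∧ a + s * d ^ 3 ≠ 0 := by
      by_cases h0 : d = 0
      · exact ⟨1, one_ne_zero, by simpa [h0] using hd.resolve_left (not_not.2 h0)⟩
      · obtain ⟨s, hs, hz⟩ := h3 (-a / d ^ 3)
        refine ⟨s, hs, fun e => hz ?_⟩
        rw [eq_div_iff (pow_ne_zero 3 h0)]
        linear_combination e
    obtain ⟨a', h'⟩ := h.move s 1 (by simp)
    refine stepB h' ?_
    have : (0 : F) - s * a - s ^ 2 * d ^ 3 - (-(s * d)) ^ 3 * (0 / ((1 : Fˣ) : F)) = -(s * (a + s * d ^ 3)) := by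
      simp; ring
    rw [this]
    exact neg_ne_zero.2 (mul_ne_zero hs hne)
  by_cases he : e = 0
  swap
  · exact ⟨_, _, _, _, _, _, he, h⟩
  by_cases hb : b = 0
  swap
  · exact stepB h hb
  subst he hb
  by_cases hd : d = 0
  swap
  · exact stepD h (Or.inl hd)
  subst hd
  by_cases hc : c = 0
  · subst hc
    exact stepD h (Or.inr (by simpa using hne))
  obtain ⟨k1, k2, k3, k5, h1, h2, -, -, a', M', h'⟩ := h.na
  simp only [mul_zero] at h'
  exact stepD h' (Or.inl (mul_ne_zero h2 hc))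

/-- An element of the two classes has no non-trivial fixed point on the radical. -/
theorem fpf [Fintype F] {T N : F} (hroot : NoRoot T N) (hN : N ≠ 0) (hN1 : N ≠ 1) {A : GL2}
    (hA : InCl2 T N A) {v : Gam F} (hv : v ∈ Vr F) (hc : psi F A * v * (psi F A)⁻¹ = v) : v = 1 := by
  obtain ⟨c, hc0, hc1, hpow, hdet⟩ : ∃ c : F, c ≠ 0 ∧ c ≠ 1 ∧
      (A : M2) ^ (Fintype.card F + 1) = c • 1 ∧ (A : M2).det ≠ 1 := by
    rcases hA with h | h
    · exact ⟨N, hN, hN1, exists_pow_scalar hroot h, h.2 ▸ hN1⟩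
    · have hroot' : NoRoot (T / N) N⁻¹ := fun r e => hroot (N * r) (by
        field_simp at e
        linear_combination N * e)
      exact ⟨N⁻¹, inv_ne_zero hN, by simpa using hN1, exists_pow_scalar hroot' h,
        by rw [h.2]; simpa using hN1⟩
  have hn : psi F (A ^ (Fintype.card F + 1)) = tor 1 (Units.mk0 c hc0) := by
    rw [show A ^ (Fintype.card F + 1) = diaG (Units.mk0 c hc0) (Units.mk0 c hc0) from Units.ext (by
      rw [Units.val_pow_eq_pow_val, hpow, val_diaG]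
      ext i j
      fin_cases i <;> fin_cases j <;> simp), psi_dia, div_self']
    congr 1
    refine Units.ext ?_
    push_cast
    rw [Units.val_mk0]
    field_simp
  have hcomm : Commute (psi F (A ^ (Fintype.card F + 1))) v := by
    rw [map_pow]
    exact Commute.pow_left (mul_inv_eq_iff_eq_mul.1 hc) _
  rw [hn] at hcomm
  obtain ⟨a, b, c', d, e, rfl⟩ := exists_vel hv
  have e1 := mul_inv_eq_iff_eq_mul.2 hcomm.eq
  rw [tor_vel] at e1
  obtain ⟨-, hb, hc', hd, he⟩ := vel_inj e1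
  have key : ∀ y : F, c⁻¹ * y = y → y = 0 := fun y hy => by
    by_contra h0
    exact hc1 (inv_eq_one.1 (mul_right_cancel₀ h0 (hy.trans (one_mul y).symm)))
  simp only [Units.val_one, one_zpow, inv_one, one_mul, Units.val_mk0, zpow_neg_one] at hb hc' hd he
  have hb0 : b = 0 := key b hb
  have hc0' : c' = 0 := key c' hc'
  have hd0 : d = 0 := key d hd
  have he0 : e = 0 := key e he
  subst hb0 hc0' hd0 he0
  rw [← X0_eq, psi_X0, X0_eq, X0_eq] at hc
  have ha := (vel_inj hc).1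
  by_cases h0 : a = 0
  · rw [h0, vel_zero]
  · exact absurd (inv_eq_one.1 (mul_right_cancel₀ h0 (ha.trans (one_mul a).symm))) hdet

/-- The left absorption. -/
theorem absorb [Fintype F] {T N : F} (hroot : NoRoot T N) (hN : N ≠ 0) (hN1 : N ≠ 1) {A : GL2}
    (hA : InCl2 T N A) {v : Gam F} (hv : v ∈ Vr F) :
    ∃ d : Gam F, v * psi F A = d * psi F A * d⁻¹ := by
  let f : ↥(Vr F) → ↥(Vr F) := fun c => ⟨(c : Gam F) * (psi F A * (c : Gam F)⁻¹ * (psi F A)⁻¹),
    mul_mem c.2 (psi_conj_mem A (inv_mem c.2))⟩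
  have hf : Function.Injective f := fun c d e => by
    have e' : (c : Gam F) * (psi F A * (c : Gam F)⁻¹ * (psi F A)⁻¹) =
        (d : Gam F) * (psi F A * (d : Gam F)⁻¹ * (psi F A)⁻¹) := congrArg Subtype.val e
    have h : psi F A * ((d : Gam F)⁻¹ * (c : Gam F)) * (psi F A)⁻¹ = (d : Gam F)⁻¹ * (c : Gam F) := by
      have h' := congrArg (fun z => (d : Gam F)⁻¹ * z * (psi F A * (c : Gam F) * (psi F A)⁻¹)) e'
      simp [mul_assoc] at h'
      simpa [mul_assoc] using h'.symm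
    exact Subtype.ext (inv_mul_eq_one.1 (fpf hroot hN hN1 hA (mul_mem (inv_mem d.2) c.2) h)).symm
  obtain ⟨c, hc⟩ := Finite.surjective_of_injective hf ⟨v, hv⟩
  refine ⟨c, ?_⟩
  rw [← show (c : Gam F) * (psi F A * (c : Gam F)⁻¹ * (psi F A)⁻¹) = v from congrArg Subtype.val hc]
  simp [mul_assoc]

theorem isConj_psi [Fintype F] {T N : F} (hroot : NoRoot T N) (hN : N ≠ 0) {Y A : GL2}
    (hY : InCl T N Y) (hA : InCl2 T N A) : IsConj (psi F Y) (psi F A) := by
  rcases hA with h | h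
  · exact (psi F).map_isConj (hY.isConj hroot h)
  · have h' : InCl T N (tw F A) := by
      have := theta_inCl (neg_c7_ne (F := F)) h
      rwa [inv_inv, div_div, mul_inv_cancel₀ hN, div_one] at this
    refine ((psi F).map_isConj (hY.isConj hroot h')).trans (isConj_iff.2 ⟨n0 F, ?_⟩)
    rw [n0_psi, theta_theta]

theorem Shape.good [Fintype F] {T N : F} (hroot : NoRoot T N) (hN : N ≠ 0) (hN1 : N ≠ 1) {Y : GL2}
    (hY : InCl T N Y) {g : Gam F} {a b c d e : F} {M : GL2} (h : Shape g a b c d e M)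
    (hM : ∃ A B, InCl2 T N A ∧ InCl2 T N B ∧ M = A * B) : Good (psi F Y) g := by
  obtain ⟨k, u, hu, hk⟩ := h
  obtain ⟨A, B, hA, hB, rfl⟩ := hM
  refine Good.conj k ?_
  rw [hk, map_mul, ← mul_assoc, mul_assoc _ (psi F B) u]
  obtain ⟨c1, hc1⟩ := absorb hroot hN hN1 hA (vel_mem a b c d e)
  rw [hc1]
  have hB' : InCl2 T N (tw F B) := InCl2.theta _ hN hB
  obtain ⟨c2, hc2⟩ := absorb hroot hN hN1 hB' (psi_conj_mem (tw F B) (mem_Ur.1 hu))
  rw [inv_mul_cancel_right] at hc2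
  have e2 : psi F B * u = (n0 F * c2) * psi F (tw F B) * (n0 F * c2)⁻¹ := by
    calc psi F B * u = n0 F * (((n0 F)⁻¹ * psi F B * n0 F) * ((n0 F)⁻¹ * u * n0 F)) * (n0 F)⁻¹ := by
          simp [mul_assoc]
      _ = _ := by rw [n0_psi_inv, hc2]; simp [mul_assoc]
  rw [e2]
  exact good_of_isConj ((isConj_psi hroot hN hY hA).trans (isConj_iff.2 ⟨c1, rfl⟩))
    ((isConj_psi hroot hN hY hB').trans (isConj_iff.2 ⟨_, rfl⟩))

theorem trace_low_dia (t : F) (τ : Fˣ) (M : GL2) :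
    ((lowG t * diaG 1 τ * M : GL2) : M2).trace = (M : M2) 0 0 + t * (M : M2) 0 1 + τ * (M : M2) 1 1 ∧
      ((lowG t * diaG 1 τ * M : GL2) : M2).det = τ * (M : M2).det := by
  rw [Units.val_mul, Units.val_mul, val_lowG, val_diaG, Units.val_one]
  constructor
  · simp only [Matrix.trace_fin_two, Matrix.mul_apply, Fin.sum_univ_two]
    simp [add_assoc]
  · rw [Matrix.det_mul, Matrix.det_mul]
    simp

/-- Odd characteristic: every element of determinant one is covered. -/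
theorem cover_odd [Fintype F] (h2 : (2 : F) ≠ 0) {T : F} (hT : T ≠ 0) {M : GL2} (hd : (M : M2).det = 1) :
    ∃ A B, InCl2 T (-1 : F) A ∧ InCl2 T (-1 : F) B ∧ M = A * B := by
  have hN : (-1 : F) ≠ 0 := neg_ne_zero.2 one_ne_zero
  have hsm : (-1 : F)⁻¹ • (M : M2) = -(M : M2) := by rw [inv_neg, inv_one, neg_one_smul]
  rcases nonscalar_or hd with hns | h1 | h1
  · by_cases ht : (M : M2).trace = 2
    · refine mul_inCl_sq hT hN (by rw [hd]; norm_num) (Or.inr ?_)
      rw [hsm]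
      refine ⟨fun c e => hns (-c) (by rw [neg_smul, ← e, neg_neg]), fun e => ?_⟩
      rw [Matrix.trace_neg, ht] at e
      exact mul_ne_zero h2 h2 (by linear_combination -e)
    · exact mul_inCl_one hT hN hd (Or.inr ⟨hns, ht⟩)
  · exact mul_inCl_one hT hN hd (Or.inl h1)
  · exact mul_inCl_sq hT hN (by rw [hd]; norm_num) (Or.inl (by rw [hsm, h1, neg_neg]))

theorem nonscalar_of_trace (h2 : (2 : F) = 0) {m : M2} (ht : m.trace ≠ 0) : Nonscalar m := fun c e => by
  apply ht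
  rw [e, Matrix.trace_smul, Matrix.trace_one, Fintype.card_fin, smul_eq_mul, Nat.cast_ofNat, h2, mul_zero]

/-- Characteristic two: non-zero trace is covered. -/
theorem cover_even [Fintype F] (h2 : (2 : F) = 0) {T N : F} (hT : T ≠ 0) (hN : N ≠ 0) {M : GL2}
    (hd : (M : M2).det = 1 ∨ (M : M2).det = N ^ 2) (ht : (M : M2).trace ≠ 0) :
    ∃ A B, InCl2 T N A ∧ InCl2 T N B ∧ M = A * B := by
  rcases hd with hd | hd
  · exact mul_inCl_one hT hN hd (Or.inr ⟨nonscalar_of_trace h2 ht, h2 ▸ ht⟩)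
  · have : (N⁻¹ • (M : M2)).trace ≠ 0 := by
      rw [Matrix.trace_smul, smul_eq_mul]
      exact mul_ne_zero (inv_ne_zero hN) ht
    exact mul_inCl_sq hT hN hd (Or.inr ⟨nonscalar_of_trace h2 this, h2 ▸ this⟩)

/-- The move to a prescribed determinant. -/
theorem Shape.toDet {g : Gam F} {a b c d e : F} {M : GL2} (h : Shape g a b c d e M) (he : e ≠ 0) {r : F}
    (hr : r ≠ 0) : ∃ a' b' c' d' e' M', Shape g a' b' c' d' e' M' ∧ (M' : M2).det = r ∧
      (d * (M : M2) 0 1 = 0 → (M' : M2).trace = (M : M2) 0 0 + r / (M : M2).det * (M : M2) 1 1) := by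
  let τ : Fˣ := Units.mk0 (r / (M : M2).det) (div_ne_zero hr M.det_ne_zero)
  obtain ⟨a', h'⟩ := h.move (((τ : F) - 1) / e) τ (by field_simp; ring)
  refine ⟨_, _, _, _, _, _, h', ?_, fun h0 => ?_⟩
  · rw [(trace_low_dia _ _ _).2]
    exact div_mul_cancel₀ r M.det_ne_zero
  · rw [(trace_low_dia _ _ _).1]
    have : -(((τ : F) - 1) / e * d) * (M : M2) 0 1 = 0 := by
      linear_combination (-(((τ : F) - 1) / e)) * h0
    rw [this, add_zero]
    rfl

/-- Characteristic two: the main criterion. -/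
theorem good_even_of [Fintype F] (h2 : (2 : F) = 0) {T N : F} (hT : T ≠ 0) (hroot : NoRoot T N) (hN : N ≠ 0)
    (hN1 : N ≠ 1) {Y : GL2} (hY : InCl T N Y) {g : Gam F} {a b c d e : F} {M : GL2} (he : e ≠ 0)
    (h : Shape g a b c d e M) (hdm : d * (M : M2) 0 1 = 0) (hm : (M : M2) 0 0 ≠ 0 ∨ (M : M2) 1 1 ≠ 0) :
    Good (psi F Y) g := by
  have key : ∀ r : F, (r = 1 ∨ r = N ^ 2) →
      (M : M2) 0 0 + r / (M : M2).det * (M : M2) 1 1 ≠ 0 → Good (psi F Y) g := by
    intro r hr hne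
    have hr0 : r ≠ 0 := by rcases hr with rfl | rfl <;> simp [hN]
    obtain ⟨a', b', c', d', e', M', h', hd', ht'⟩ := h.toDet he hr0
    exact h'.good hroot hN hN1 hY (cover_even h2 hT hN (hd' ▸ hr) (ht' hdm ▸ hne))
  by_contra hg
  have e1 : (M : M2) 0 0 + 1 / (M : M2).det * (M : M2) 1 1 = 0 := by
    by_contra hne; exact hg (key 1 (Or.inl rfl) hne)
  have e2 : (M : M2) 0 0 + N ^ 2 / (M : M2).det * (M : M2) 1 1 = 0 := by
    by_contra hne; exact hg (key _ (Or.inr rfl) hne)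
  have hN2 : N ^ 2 - 1 ≠ 0 := fun e => hN1 (by
    have : (N - 1) ^ 2 = 0 := by linear_combination e + (1 - N) * h2
    exact sub_eq_zero.1 (pow_eq_zero_iff (two_ne_zero) |>.1 this))
  have h3 : (N ^ 2 - 1) / (M : M2).det * (M : M2) 1 1 = 0 := by
    rw [sub_div]; linear_combination e2 - e1
  have h11 : (M : M2) 1 1 = 0 := (mul_eq_zero.1 h3).resolve_left (div_ne_zero hN2 M.det_ne_zero)
  rw [h11, mul_zero, add_zero] at e1
  exact hm.elim (fun h' => h' e1) fun h' => h' h11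

theorem conj_up (l : F) (M : GL2) :
    ((upG l * M * (upG l)⁻¹ : GL2) : M2) = !![(M : M2) 0 0 + l * (M : M2) 1 0,
      (M : M2) 0 1 + l * (M : M2) 1 1 - l * ((M : M2) 0 0 + l * (M : M2) 1 0);
      (M : M2) 1 0, (M : M2) 1 1 - l * (M : M2) 1 0] := by
  rw [show (upG l : GL2)⁻¹ = upG (-l) from inv_eq_of_mul_eq_one_right (Units.ext (by
    simp [val_upG, Matrix.one_fin_two]))]
  rw [Units.val_mul, Units.val_mul, val_upG, val_upG]
  ext i j
  simp only [Matrix.mul_apply, Fin.sum_univ_two]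
  fin_cases i <;> fin_cases j <;> simp <;> ring

/-- Characteristic two: all cases. -/
theorem good_even [Fintype F] (h2 : (2 : F) = 0) {T N : F} (hT : T ≠ 0) (hroot : NoRoot T N) (hN : N ≠ 0)
    (hN1 : N ≠ 1) {Y : GL2} (hY : InCl T N Y) {g : Gam F} {a b c d e : F} {M : GL2} (he : e ≠ 0)
    (h : Shape g a b c d e M) : Good (psi F Y) g := by
  -- normalise the third coordinate
  obtain ⟨a0, h0⟩ := X4_vel (-d / e) a b c d e
  have h1 := h.conjL (lowG (-d / e)) (by rw [psi_low]; exact h0)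
  rw [show d + -d / e * e = 0 by field_simp; ring] at h1
  set b1 := b - 3 * (-d / e) * c - 3 * (-d / e) ^ 2 * d - (-d / e) ^ 3 * e
  set c1 := c + 2 * (-d / e) * d + (-d / e) ^ 2 * e
  set M1 : GL2 := lowG (-d / e) * M * (lowG (-d / e))⁻¹
  clear_value b1 c1 M1
  set p := (M1 : M2) 0 1 with hpdef
  set p' := (M1 : M2) 1 0 with hp'def
  by_cases hm : (M1 : M2) 0 0 ≠ 0 ∨ (M1 : M2) 1 1 ≠ 0
  · exact good_even_of h2 hT hroot hN hN1 hY he h1 (zero_mul _) hm
  obtain ⟨h00, h11⟩ : (M1 : M2) 0 0 = 0 ∧ (M1 : M2) 1 1 = 0 := by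
    refine ⟨?_, ?_⟩ <;> by_contra hc
    · exact hm (Or.inl hc)
    · exact hm (Or.inr hc)
  have hpp : p ≠ 0 ∧ p' ≠ 0 := by
    have := M1.det_ne_zero
    rw [Matrix.det_fin_two, h00, ← hpdef, ← hp'def] at this
    simpa [mul_ne_zero_iff] using this
  have : CharP F 2 := CharTwo.of_one_ne_zero_of_two_eq_zero one_ne_zero h2
  obtain ⟨l0, hl0⟩ := FiniteField.isSquare_of_char_two (ringChar.eq F 2) (p / p')
  have hl00 : l0 ≠ 0 := fun e => div_ne_zero hpp.1 hpp.2 (by rw [hl0, e, mul_zero])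
  rw [div_eq_iff hpp.2] at hl0
  by_cases hA : b1 = 0 ∧ a0 = 0
  · obtain ⟨hb, ha⟩ := hA
    -- a suitable conjugate by an upper element
    obtain ⟨l, hl, hl'⟩ : ∃ l : F, l ≠ 0 ∧ e + l ^ 2 * c1 ≠ 0 := by
      by_contra hno
      simp only [not_exists, not_and, not_not] at hno
      have e1 := hno 1 one_ne_zero
      have e2 := hno N hN
      have : (N ^ 2 - 1) * c1 = 0 := by linear_combination e2 - e1
      rcases mul_eq_zero.1 this with h' | h'
      · have h'' : (N - 1) ^ 2 = 0 := by linear_combination h' + (1 - N) * h2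
        exact hN1 (sub_eq_zero.1 (pow_eq_zero_iff (two_ne_zero) |>.1 h''))
      · rw [h', mul_zero, add_zero] at e1
        exact he e1
    obtain ⟨a2, h7⟩ := X7_vel l a0 b1 c1 0 e
    have h3 := h1.conjL (upG l) (by rw [psi_up]; exact h7)
    refine good_even_of h2 hT hroot hN hN1 hY ?_ h3 ?_ (Or.inl ?_)
    · rw [hb]
      intro e'
      exact hl' (by linear_combination e' - l ^ 2 * c1 * h2)
    · rw [hb, show (0 : F) + 2 * l * c1 - l ^ 2 * 0 = 0 by linear_combination l * c1 * h2, zero_mul]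
    · rw [conj_up]
      simp [h00, ← hp'def, hl, hpp.2]
  · -- an intermediate move
    obtain ⟨σ, hσ, hP⟩ : ∃ σ : F, σ ≠ 0 ∧
        σ * (e + l0 ^ 2 * c1) + l0 ^ 3 * (b1 + (σ ^ 2 + 1) / e * a0) ≠ 0 := by
      by_contra hno
      simp only [not_exists, not_and, not_not] at hno
      have e1 := hno 1 one_ne_zero
      have e2 := hno N hN
      have e3 := hno (N + 1) (fun e => hN1 (by linear_combination e - h2))
      have hl3 : l0 ^ 3 ≠ 0 := pow_ne_zero 3 hl00
      obtain ⟨A, hAdef⟩ : ∃ A, A = e + l0 ^ 2 * c1 := ⟨_, rfl⟩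
      obtain ⟨B, hBdef⟩ : ∃ B, B = l0 ^ 3 / e * a0 := ⟨_, rfl⟩
      obtain ⟨C, hCdef⟩ : ∃ C, C = l0 ^ 3 * b1 := ⟨_, rfl⟩
      have f1 : A + C = 0 := by
        rw [hAdef, hCdef]; linear_combination e1 - (l0 ^ 3 / e * a0) * h2
      have f2 : N * A + C + (N ^ 2 + 1) * B = 0 := by
        rw [hAdef, hBdef, hCdef]; linear_combination e2
      have f3 : (N + 1) * A + C + ((N + 1) ^ 2 + 1) * B = 0 := by
        rw [hAdef, hBdef, hCdef]; linear_combination e3
      have hB0 : N * (N + 1) * B = 0 := by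
        linear_combination (f2 - f1) - (N - 1) * (f3 - f2) + (N ^ 2 - 1) * B * h2
      have hN' : N + 1 ≠ 0 := fun e => hN1 (by linear_combination e - h2)
      have hB : B = 0 := by simpa [hN, hN'] using hB0
      rw [hB, mul_zero, add_zero] at f2
      have hA0 : (N - 1) * A = 0 := by linear_combination f2 - f1
      have hA1 : A = 0 := by simpa [sub_eq_zero, hN1] using hA0
      rw [hA1, zero_add] at f1
      rw [hBdef] at hB
      refine hA ⟨?_, ?_⟩
      · exact (mul_eq_zero.1 (hCdef ▸ f1)).resolve_left hl3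
      · exact (mul_eq_zero.1 hB).resolve_left (div_ne_zero hl3 he)
    let τ : Fˣ := Units.mk0 (σ ^ 2) (pow_ne_zero 2 hσ)
    obtain ⟨a2, h3⟩ := h1.move ((σ ^ 2 + 1) / e) τ (by
      show σ ^ 2 = _; field_simp; linear_combination -h2)
    set s := (σ ^ 2 + 1) / e with hs
    set M2' : GL2 := lowG (-(s * 0)) * diaG 1 τ * M1 with hM2'
    have hv2 : (M2' : M2) = !![0, p; σ ^ 2 * p', 0] := by
      rw [hM2', Units.val_mul, Units.val_mul, val_lowG, val_diaG]
      ext i j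
      fin_cases i <;> fin_cases j <;>
        simp [Matrix.mul_apply, Fin.sum_univ_two, h00, h11, ← hpdef, ← hp'def, τ]
    obtain ⟨a3, h7⟩ := X7_vel (l0 / σ) a2 _ _ _ _
    have h4 := h3.conjL (upG (l0 / σ)) (by rw [psi_up]; exact h7)
    refine good_even_of h2 hT hroot hN hN1 hY ?_ h4 ?_ (Or.inl ?_)
    · intro e'
      apply hP
      simp [τ] at e'
      field_simp at e' ⊢
      linear_combination e' + (l0 ^ 3 * b1 - σ * l0 ^ 2 * c1) * h2
    · rw [conj_up, hv2]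
      simp
      right
      field_simp
      linear_combination hl0
    · rw [conj_up, hv2]
      simp [hl00, hσ, hpp.2]

/-- Every non-identity element, or its inverse, has a useful conjugate. -/
theorem exists_shape (h3 : ∀ z : F, ∃ s : F, s ≠ 0 ∧ s ≠ z) {g : Gam F} (hg : g ≠ 1) :
    ∃ a b c d e M, e ≠ 0 ∧ (Shape g a b c d e M ∨ Shape g⁻¹ a b c d e M) := by
  have hV : ∀ {g : Gam F} {v : Gam F} {M : GL2} {u : Gam F}, v ∈ Vr F → v ≠ 1 → u ∈ Ur F →
      (∃ k, k * g * k⁻¹ = v * psi F M * u) → ∃ a b c d e M, e ≠ 0 ∧ Shape g a b c d e M := by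
    intro g v M u hv hne hu hk
    obtain ⟨a, b, c, d, e, rfl⟩ := exists_vel hv
    obtain ⟨k, hk⟩ := hk
    refine Shape.reach h3 (M := M) ⟨k, u, hu, hk⟩ ?_
    by_contra h0
    simp only [not_or, not_not] at h0
    obtain ⟨rfl, rfl, rfl, rfl, rfl⟩ := h0
    exact hne vel_zero
  have hU : ∀ {g : Gam F} {M : GL2} {u : Gam F}, u ∈ Ur F → u ≠ 1 →
      (∃ k, k * g * k⁻¹ = psi F M * u) → ∃ a b c d e M, e ≠ 0 ∧ Shape g⁻¹ a b c d e M := by
    intro g M u hu hne hk
    obtain ⟨k, hk⟩ := hk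
    refine hV (v := (n0 F)⁻¹ * u⁻¹ * n0 F) (u := 1) (M := tw F M⁻¹) (mem_Ur.1 (inv_mem hu)) ?_ (one_mem _)
      ⟨(n0 F)⁻¹ * k, ?_⟩
    · intro e
      apply hne
      have := congrArg (fun z => n0 F * z * (n0 F)⁻¹) e
      simpa [mul_assoc] using this
    · calc (n0 F)⁻¹ * k * g⁻¹ * ((n0 F)⁻¹ * k)⁻¹ = (n0 F)⁻¹ * (k * g * k⁻¹)⁻¹ * n0 F := by simp [mul_assoc]
        _ = _ := by rw [hk, mul_one, ← n0_psi_inv, map_inv]; simp [mul_assoc]
  have fin : (∃ a b c d e M, e ≠ 0 ∧ Shape g a b c d e M) ∨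
      (∃ a b c d e M, e ≠ 0 ∧ Shape g⁻¹ a b c d e M) →
      ∃ a b c d e M, e ≠ 0 ∧ (Shape g a b c d e M ∨ Shape g⁻¹ a b c d e M) := by
    rintro (⟨a, b, c, d, e, M, he, h⟩ | ⟨a, b, c, d, e, M, he, h⟩)
    · exact ⟨a, b, c, d, e, M, he, Or.inl h⟩
    · exact ⟨a, b, c, d, e, M, he, Or.inr h⟩
  refine fin ?_
  obtain ⟨k, v, hv, M, u, hu, hk⟩ := exists_cell g
  by_cases hv1 : v = 1
  swap
  · exact Or.inl (hV hv hv1 hu ⟨k, hk⟩)
  rw [hv1, one_mul] at hk
  by_cases hu1 : u = 1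
  swap
  · exact Or.inr (hU hu hu1 ⟨k, hk⟩)
  rw [hu1, mul_one] at hk
  by_cases hns : Nonscalar (M : M2)
  · -- conjugate inside the Levi subgroup to a product of three root or torus factors
    obtain ⟨t, ht⟩ : ∃ t, t = (M : M2).trace := ⟨_, rfl⟩
    obtain ⟨ω, hω⟩ : ∃ ω : Fˣ, (ω : F) = (M : M2).det := ⟨Units.mk0 _ M.det_ne_zero, rfl⟩
    let A : GL2 := lowG 1 * diaG 1 ω * upG (t - 1 - ω)
    have hAv : (A : M2) = !![1, t - 1 - ω; 1, t - 1] := by
      show ((lowG 1 * diaG 1 ω * upG (t - 1 - ω) : GL2) : M2) = _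
      rw [Units.val_mul, Units.val_mul, val_lowG, val_diaG, val_upG]
      simp [Matrix.mul_fin_two]
    have hAns : Nonscalar (A : M2) := fun c e => by
      have := congrFun (congrFun e 1) 0
      rw [hAv] at this
      simp at this
    obtain ⟨P, hP, hMP⟩ := Linear.Classes.exists_intertwiner hAns hns
      (by rw [hAv, Matrix.trace_fin_two, ← ht]; simp) (by rw [hAv, Matrix.det_fin_two, ← hω]; simp)
    let Pu : GL2 := Matrix.GeneralLinearGroup.mkOfDetNeZero P hP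
    have hc : Pu * M * Pu⁻¹ = A := by
      rw [mul_inv_eq_iff_eq_mul]
      exact Units.ext hMP.symm
    obtain ⟨len, hR⟩ := (G2Inv.rules F).root
    obtain ⟨kb, hkb, hb⟩ := (gs F).conjP_nI (G2Inv.rules F) hR i1
    have hd : act chevG2 [i1] 4 = 3 ∧ act chevG2 [i1] 7 = 8 := by decide +kernel
    obtain ⟨M', hM'⟩ := exists_psi_of_Hbar (F := F) (h := nb F * psi F (diaG 1 ω) * (nb F)⁻¹) (by
      rw [psi_dia, nb_tor]; exact tor_mem _ _)
    refine Or.inl (hV (v := X 3 (kb 4 * 1)) (M := M') (u := X 8 (kb 7 * (t - 1 - ω)))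
      ((gs F).x_mem_US (show 3 ∈ vSet by simp [vSet]) _) ?_ (X_mem_Ur (by simp) _)
      ⟨nb F * psi F Pu * k, ?_⟩)
    · intro e
      rw [X3_eq] at e
      exact mul_ne_zero (right_ne_zero_of_mul_eq_one (hkb 4 (by decide))) one_ne_zero (vel_eq_one e).2.2.2.1
    · calc nb F * psi F Pu * k * g * (nb F * psi F Pu * k)⁻¹
          = nb F * (psi F Pu * (k * g * k⁻¹) * (psi F Pu)⁻¹) * (nb F)⁻¹ := by simp [mul_assoc]
        _ = nb F * psi F A * (nb F)⁻¹ := by rw [hk, ← map_inv, ← map_mul, ← map_mul, hc]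
        _ = (nb F * X 4 1 * (nb F)⁻¹) * (nb F * psi F (diaG 1 ω) * (nb F)⁻¹) *
              (nb F * X 7 (t - 1 - ω) * (nb F)⁻¹) := by
            rw [map_mul, map_mul, psi_low, psi_up]; simp [mul_assoc]
        _ = _ := by rw [hb 4 (by decide), hb 7 (by decide), hd.1, hd.2, ← hM']
  · simp only [Nonscalar, not_forall, not_not] at hns
    obtain ⟨c, hc⟩ := hns
    have hc0 : c ≠ 0 := by
      rintro rfl
      exact M.det_ne_zero (by rw [hc]; simp)
    let cu := Units.mk0 c hc0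
    have hMd : M = diaG cu cu := Units.ext (by
      rw [hc, val_diaG]; ext i j; fin_cases i <;> fin_cases j <;> simp [cu])
    have hc1 : c ≠ 1 := by
      rintro rfl
      apply hg
      have hM1 : psi F M = 1 := by
        rw [show M = 1 from Units.ext (by rw [hc, one_smul, Units.val_one]), map_one]
      rw [hM1] at hk
      have := congrArg (fun z => k⁻¹ * z * k) hk
      simpa [mul_assoc] using this
    have hpt : psi F M = tor 1 cu := by
      rw [hMd, psi_dia, div_self']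
      congr 1
      refine Units.ext ?_
      push_cast
      field_simp
    refine Or.inr (hU (M := M) (u := X 6 (c⁻¹ - 1)) (X_mem_Ur (by simp) _) ?_ ⟨X 6 1 * k, ?_⟩)
    · intro e
      rw [← X_zero (F := F) (r := 6) (by decide)] at e
      have := x_param_inj (F := F) (r := 6) (by decide) (congrArg Subtype.val e)
      exact hc1 (inv_eq_one.1 (sub_eq_zero.1 this))
    · calc X 6 1 * k * g * (X 6 1 * k)⁻¹ = X 6 1 * (k * g * k⁻¹) * (X 6 1)⁻¹ := by simp [mul_assoc]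
        _ = _ := by
          rw [hk, hpt]
          have h := tor_conj (1 : Fˣ) cu⁻¹ (s := 6) (by decide) (1 : F)
          rw [cofData.2.1] at h
          simp [cu] at h
          rw [show (tor (1 : Fˣ) (Units.mk0 c hc0)⁻¹) = (tor 1 cu)⁻¹ by rw [tor_inv, inv_one], inv_inv] at h
          rw [show X 6 (c⁻¹ - 1) = X 6 c⁻¹ * (X 6 (1 : F))⁻¹ by
            rw [X_inv (by decide), X_add (by decide), sub_eq_add_neg], ← h]
          simp [mul_assoc, cu]

/-- The theorem. -/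
theorem exists_class [Fintype F] (p : ℕ) [Fact p.Prime] [CharP F p] (h3 : 3 ≤ Fintype.card F) :
    ∃ x : Gam F, ¬ p ∣ orderOf x ∧ ∀ g : Gam F, g ≠ 1 → Good x g := by
  classical
  have hex : ∀ z : F, ∃ s : F, s ≠ 0 ∧ s ≠ z := fun z => by
    by_contra hno
    simp only [not_exists, not_and, not_not] at hno
    have : Fintype.card F ≤ 2 := by
      calc Fintype.card F = (Finset.univ : Finset F).card := Finset.card_univ.symm
        _ ≤ ({0, z} : Finset F).card := Finset.card_le_card fun s _ => by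
            by_cases hs : s = 0
            · simp [hs]
            · simp [hno s hs]
        _ ≤ 2 := Finset.card_le_two
    omega
  -- the parameter `N`
  obtain ⟨N, hN, hN1, hodd⟩ : ∃ N : F, N ≠ 0 ∧ N ≠ 1 ∧ ((2 : F) ≠ 0 → N = -1) := by
    by_cases h2 : (2 : F) = 0
    · obtain ⟨s, hs, hs1⟩ := hex 1
      exact ⟨s, hs, hs1, fun h => absurd h2 h⟩
    · exact ⟨-1, neg_ne_zero.2 one_ne_zero, fun e => h2 (by linear_combination -e), fun _ => rfl⟩
  obtain ⟨T, hT, hroot⟩ := exists_noRoot hN hN1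
  let Y : GL2 := Matrix.GeneralLinearGroup.mkOfDetNeZero (companion T N)
    (by rwa [Linear.Classes.det_companion])
  have hY : InCl T N Y := ⟨Linear.Classes.trace_companion T N, Linear.Classes.det_companion T N⟩
  refine ⟨psi F Y, ?_, fun g hg => ?_⟩
  · intro hdvd
    have hYp : Y ^ (Fintype.card F + 1) = diaG (Units.mk0 N hN) (Units.mk0 N hN) := Units.ext (by
      rw [Units.val_pow_eq_pow_val, exists_pow_scalar hroot hY, val_diaG]
      ext i j; fin_cases i <;> fin_cases j <;> simp)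
    have hD : (diaG (Units.mk0 N hN) (Units.mk0 N hN) : GL2) ^ (Fintype.card F - 1) = 1 := by
      refine Units.ext ?_
      rw [Units.val_pow_eq_pow_val, val_diaG,
        show (!![(Units.mk0 N hN : Fˣ), 0; 0, (Units.mk0 N hN : Fˣ)] : M2) = N • 1 by
          ext i j; fin_cases i <;> fin_cases j <;> simp, smul_pow, one_pow,
        FiniteField.pow_card_sub_one_eq_one N hN, one_smul, Units.val_one]
    have hord : psi F Y ^ ((Fintype.card F + 1) * (Fintype.card F - 1)) = 1 := by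
      rw [← map_pow, pow_mul, hYp, hD, map_one]
    have hpd : p ∣ (Fintype.card F + 1) * (Fintype.card F - 1) :=
      hdvd.trans (orderOf_dvd_of_pow_eq_one hord)
    obtain ⟨n, -, hn⟩ := FiniteField.card F p
    have hpq : p ∣ Fintype.card F := hn ▸ dvd_pow_self p n.ne_zero
    have hp1 : p ≠ 1 := (Fact.out : p.Prime).ne_one
    rcases (Fact.out : p.Prime).dvd_mul.1 hpd with h | h
    · exact hp1 (Nat.dvd_one.1 ((Nat.dvd_add_right hpq).1 h))
    · have h1 : p ∣ 1 := by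
        have := Nat.dvd_sub hpq h
        rwa [show Fintype.card F - (Fintype.card F - 1) = 1 by omega] at this
      exact hp1 (Nat.dvd_one.1 h1)
  · have hxi : IsConj (psi F Y) (psi F Y)⁻¹ := by
      rw [← map_inv]
      exact isConj_psi hroot hN hY (InCl2.inv hN (Or.inl hY))
    have main : ∀ g : Gam F, (∃ a b c d e M, e ≠ 0 ∧ Shape g a b c d e M) → Good (psi F Y) g := by
      rintro g ⟨a, b, c, d, e, M, he, h⟩
      by_cases h2 : (2 : F) = 0
      · exact good_even h2 hT hroot hN hN1 hY he h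
      · obtain ⟨a', b', c', d', e', M', h', hd', -⟩ := h.toDet he one_ne_zero
        have hN' := hodd h2
        subst hN'
        exact h'.good hroot hN hN1 hY (cover_odd h2 hT hd')
    obtain ⟨a, b, c, d, e, M, he, h | h⟩ := exists_shape hex hg
    · exact main g ⟨a, b, c, d, e, M, he, h⟩
    · exact Good.inv hxi (main _ ⟨a, b, c, d, e, M, he, h⟩)

end Cfsg.Agent.G2Sq
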