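import Cfsg.Agent.G2Sq.Levi

/-!
Coordinates on the opposite radical of the long root parabolic and their changes under root elements.
-/

set_option autoImplicit false

namespace Cfsg.Agent.G2Sq

open Cfsg.Lie Cfsg.Agent.ChevGrp Cfsg.Agent.G2Inv Cfsg.Agent.G2Deg
open scoped MatrixGroups

variable {F : Type*} [Field F]

/-- The element with coordinates `a, b, c, d, e` on the roots `0, 1, 2, 3, 5`. -/
noncomputable def vel (a b c d e : F) : Gam F := X 0 a * X 1 b * X 2 c * X 3 d * X 5 e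

theorem commVData : ∀ p ∈ ([(0, 1), (0, 2), (0, 3), (0, 5), (1, 2), (1, 3), (2, 5), (3, 5), (7, 5), (7, 0), (4, 1),
    (4, 0), (6, 2), (6, 1)] : List (ℕ × ℕ)),
    (p.1 < 12 ∧ p.2 < 12 ∧ p.2 ≠ p.1 ∧ p.2 ≠ chevG2.neg p.1 ∧ chevG2.commTerms p.1 p.2 = []) := by
  decide +kernel

theorem commV {r s : ℕ} (h : (r, s) ∈ ([(0, 1), (0, 2), (0, 3), (0, 5), (1, 2), (1, 3), (2, 5), (3, 5), (7, 5),
    (7, 0), (4, 1), (4, 0), (6, 2), (6, 1)] : List (ℕ × ℕ))) (t u : F) : X r t * X s u = X s u * X r t := by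
  obtain ⟨a, b, c, d, e⟩ := commVData (r, s) h
  exact cj_nil a b c d e t u

set_option maxRecDepth 4000 in
theorem ctV : chevG2.commTerms 3 2 = [(0, -3, 1, 1)] ∧ chevG2.commTerms 5 1 = [(0, -1, 1, 1)] ∧
    chevG2.commTerms 7 3 = [(5, 3, 1, 1)] ∧
    chevG2.commTerms 7 2 = [(3, 2, 1, 1), (5, 3, 2, 1), (0, -3, 1, 2)] ∧
    chevG2.commTerms 7 1 = [(2, -1, 1, 1), (3, -1, 2, 1), (5, -1, 3, 1), (0, -1, 3, 2)] ∧
    chevG2.commTerms 4 5 = [(3, 1, 1, 1), (2, 1, 2, 1), (1, -1, 3, 1), (0, 1, 3, 2)] ∧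
    chevG2.commTerms 4 3 = [(2, 2, 1, 1), (1, -3, 2, 1), (0, 3, 1, 2)] ∧
    chevG2.commTerms 4 2 = [(1, -3, 1, 1)] ∧ chevG2.commTerms 6 0 = [(1, -1, 1, 1)] ∧
    chevG2.commTerms 6 3 = [(4, -1, 1, 1), (2, -1, 1, 2), (0, -1, 1, 3), (1, 2, 2, 3)] := by
  refine ⟨?_, ?_, ?_, ?_, ?_, ?_, ?_, ?_, ?_, ?_⟩ <;> decide +kernel

theorem negV : ∀ r ∈ ([3, 4, 5, 6, 7] : List ℕ), chevG2.neg r = 11 - r := by decide +kernel

theorem cj32 (t u : F) : X 3 t * X 2 u * (X 3 t)⁻¹ = X 2 u * X 0 (-(3 * t * u)) := by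
  rw [cj (by decide) (by decide) (by decide) (by rw [negV 3 (by simp)]; decide)]
  simp [cjWord, ctV.1, mul_assoc]

theorem cj15 (t u : F) : X 5 t * X 1 u = X 1 u * X 0 (-(t * u)) * X 5 t := by
  rw [← cj51 t u, inv_mul_cancel_right]

theorem sw23 (t u : F) : X 3 t * X 2 u = X 2 u * X 0 (-(3 * t * u)) * X 3 t := by
  rw [← cj32, inv_mul_cancel_right]

theorem vel_mul (a b c d e a' b' c' d' e' : F) :
    vel a b c d e * vel a' b' c' d' e' =
      vel (a + a' - e * b' - 3 * d * c') (b + b') (c + c') (d + d') (e + e') := by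
  have z0 : ∀ {r : ℕ}, r ∈ ([1, 2, 3, 5] : List ℕ) → ∀ (t u : F) (z : Gam F),
      X r u * (X 0 t * z) = X 0 t * (X r u * z) := by
    intro r hr t u z
    rw [← mul_assoc, ← commV (by simp at hr ⊢; omega) t u, mul_assoc]
  have z00 : ∀ (t u : F) (z : Gam F), X 0 t * (X 0 u * z) = X 0 (t + u) * z := fun t u z => by
    rw [← mul_assoc, X_add (by decide)]
  have a1 : ∀ (t u : F) (z : Gam F), X 3 t * (X 1 u * z) = X 1 u * (X 3 t * z) := fun t u z => by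
    rw [← mul_assoc, ← commV (r := 1) (s := 3) (by simp) u t, mul_assoc]
  have a2 : ∀ (t u : F) (z : Gam F), X 2 t * (X 1 u * z) = X 1 u * (X 2 t * z) := fun t u z => by
    rw [← mul_assoc, ← commV (r := 1) (s := 2) (by simp) u t, mul_assoc]
  have a5 : ∀ (t u : F) (z : Gam F), X 5 t * (X 2 u * z) = X 2 u * (X 5 t * z) := fun t u z => by
    rw [← mul_assoc, ← commV (r := 2) (s := 5) (by simp) u t, mul_assoc]
  have a6 : ∀ (t u : F) (z : Gam F), X 5 t * (X 3 u * z) = X 3 u * (X 5 t * z) := fun t u z => by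
    rw [← mul_assoc, ← commV (r := 3) (s := 5) (by simp) u t, mul_assoc]
  simp only [vel, mul_assoc]
  -- move the head of the second factor to the front
  rw [z0 (by simp) a' e, z0 (by simp) a' d, z0 (by simp) a' c, z0 (by simp) a' b, z00]
  rw [← mul_assoc (X 5 e), cj15, mul_assoc, mul_assoc]
  rw [a1, z0 (by simp) _ d, a2, z0 (by simp) _ c, ← mul_assoc (X 1 b) (X 1 b'), X_add (by decide),
    z0 (by simp) _ (b + b'), z00]
  rw [a5, ← mul_assoc (X 3 d), sw23, mul_assoc, mul_assoc, ← mul_assoc (X 2 c) (X 2 c'),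
    X_add (by decide), z0 (by simp) _ (c + c'), z0 (by simp) _ (b + b'), z00]
  rw [a6, ← mul_assoc (X 3 d) (X 3 d'), X_add (by decide), X_add (by decide)]
  congr 2
  ring

theorem vel_zero : vel (0 : F) 0 0 0 0 = 1 := by simp [vel, X_zero]

theorem X0_eq (t : F) : X 0 t = vel t 0 0 0 0 := by simp [vel, X_zero]
theorem X1_eq (t : F) : X 1 t = vel 0 t 0 0 0 := by simp [vel, X_zero]
theorem X2_eq (t : F) : X 2 t = vel 0 0 t 0 0 := by simp [vel, X_zero]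
theorem X3_eq (t : F) : X 3 t = vel 0 0 0 t 0 := by simp [vel, X_zero]
theorem X5_eq (t : F) : X 5 t = vel 0 0 0 0 t := by simp [vel, X_zero]

theorem vel_mem (a b c d e : F) : vel a b c d e ∈ Vr F := by
  have h : ∀ r ∈ ([0, 1, 2, 3, 5] : List ℕ), ∀ t : F, X r t ∈ Vr F := fun r hr t => (gs F).x_mem_US hr t
  exact mul_mem (mul_mem (mul_mem (mul_mem (h 0 (by simp) a) (h 1 (by simp) b)) (h 2 (by simp) c))
    (h 3 (by simp) d)) (h 5 (by simp) e)

theorem vel_inv (a b c d e : F) :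
    (vel a b c d e)⁻¹ = vel (-a - e * b - 3 * d * c) (-b) (-c) (-d) (-e) := by
  refine inv_eq_of_mul_eq_one_right ?_
  rw [vel_mul, ← vel_zero]
  congr 1 <;> ring

theorem exists_vel {v : Gam F} (hv : v ∈ Vr F) : ∃ a b c d e : F, v = vel a b c d e := by
  refine Subgroup.closure_induction ?_ ?_ ?_ ?_ hv
  · rintro _ ⟨r, hr, t, rfl⟩
    have hr' : r ∈ ([0, 1, 2, 3, 5] : List ℕ) := hr
    simp only [List.mem_cons, List.not_mem_nil, or_false] at hr'
    rcases hr' with rfl | rfl | rfl | rfl | rfl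
    exacts [⟨_, _, _, _, _, X0_eq t⟩, ⟨_, _, _, _, _, X1_eq t⟩, ⟨_, _, _, _, _, X2_eq t⟩,
      ⟨_, _, _, _, _, X3_eq t⟩, ⟨_, _, _, _, _, X5_eq t⟩]
  · exact ⟨0, 0, 0, 0, 0, vel_zero.symm⟩
  · rintro _ _ _ _ ⟨a, b, c, d, e, rfl⟩ ⟨a', b', c', d', e', rfl⟩
    exact ⟨_, _, _, _, _, vel_mul ..⟩
  · rintro _ _ ⟨a, b, c, d, e, rfl⟩
    exact ⟨_, _, _, _, _, vel_inv ..⟩

theorem negEnum : ∀ r < 12, (r ∈ ([0, 1, 2, 3, 5, 4] : List ℕ) ↔ chevG2.IsNegRoot r) := by decide +kernel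

theorem vel_inj {a b c d e a' b' c' d' e' : F} (h : vel a b c d e = vel a' b' c' d' e') :
    a = a' ∧ b = b' ∧ c = c' ∧ d = d' ∧ e = e' := by
  obtain ⟨len, hR⟩ := (G2Inv.rules F).root
  let mk : F → F → F → F → F → ℕ → F := fun a b c d e r =>
    match r with
    | 0 => a
    | 1 => b
    | 2 => c
    | 3 => d
    | 5 => e
    | _ => 0
  have hL : Enum (negSet chevG2) [0, 1, 2, 3, 5, 4] := ⟨by decide, fun r => by
    constructor
    · intro hr
      have h12 : r < 12 := by simp at hr; omega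
      exact (negEnum r h12).1 hr
    · intro hr
      have hr' : chevG2.IsNegRoot r := hr
      exact (negEnum r hr'.1).2 hr'⟩
  have e1 : ∀ a b c d e : F, (gs F).P [0, 1, 2, 3, 5, 4] (mk a b c d e) = vel a b c d e := fun a b c d e => by
    simp [Sys.P_cons, Sys.P_nil, mk, vel, X_zero, mul_assoc]
  have key := (gs F).coef_unique hR hR.negSet_closed hL (t := mk a b c d e) (t' := mk a' b' c' d' e')
    (congrArg (gs F).θ (by rw [e1, e1, h]))
  have m : ∀ r ∈ ([0, 1, 2, 3, 5] : List ℕ), mk a b c d e r = mk a' b' c' d' e' r := fun r hr =>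
    key r ((hL.2 r).1 (by simp at hr ⊢; omega))
  exact ⟨m 0 (by simp), m 1 (by simp), m 2 (by simp), m 3 (by simp), m 5 (by simp)⟩

theorem vel_eq_one {a b c d e : F} (h : vel a b c d e = 1) : a = 0 ∧ b = 0 ∧ c = 0 ∧ d = 0 ∧ e = 0 :=
  vel_inj (h.trans vel_zero.symm)

theorem conj_vel (g : Gam F) (a b c d e : F) :
    g * vel a b c d e * g⁻¹ = (g * X 0 a * g⁻¹) * (g * X 1 b * g⁻¹) * (g * X 2 c * g⁻¹) * (g * X 3 d * g⁻¹) *
      (g * X 5 e * g⁻¹) := by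
  simp [vel, mul_assoc]

theorem tor_vel (u v : Fˣ) (a b c d e : F) :
    tor u v * vel a b c d e * (tor u v)⁻¹ = vel ((u : F) ^ (-3 : ℤ) * (v : F) ^ (-2 : ℤ) * a)
      ((u : F) ^ (-3 : ℤ) * (v : F) ^ (-1 : ℤ) * b) ((u : F) ^ (-2 : ℤ) * (v : F) ^ (-1 : ℤ) * c)
      ((u : F) ^ (-1 : ℤ) * (v : F) ^ (-1 : ℤ) * d) ((v : F) ^ (-1 : ℤ) * e) := by
  have h : cof 0 = (-3, -2) ∧ cof 1 = (-3, -1) ∧ cof 2 = (-2, -1) ∧ cof 3 = (-1, -1) ∧ cof 5 = (0, -1) := by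
    decide +kernel
  rw [conj_vel, tor_conj _ _ (by decide), tor_conj _ _ (by decide), tor_conj _ _ (by decide),
    tor_conj _ _ (by decide), tor_conj _ _ (by decide), h.1, h.2.1, h.2.2.1, h.2.2.2.1, h.2.2.2.2, vel]
  simp

theorem na_vel : ∃ k : ℕ → F, (∀ r < 12, k r ≠ 0) ∧ ∀ a b c d e : F, ∃ a' : F,
    na F * vel a b c d e * (na F)⁻¹ = vel a' (k 5 * e) (k 3 * d) (k 2 * c) (k 1 * b) := by
  obtain ⟨len, hR⟩ := (G2Inv.rules F).root
  obtain ⟨k, hk, hnk⟩ := (gs F).conjP_nI (G2Inv.rules F) hR i0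
  have hd : act chevG2 [i0] 0 = 0 ∧ act chevG2 [i0] 1 = 5 ∧ act chevG2 [i0] 2 = 3 ∧ act chevG2 [i0] 3 = 2 ∧
      act chevG2 [i0] 5 = 1 := by decide +kernel
  refine ⟨k, fun r hr => right_ne_zero_of_mul_eq_one (hk r hr), fun a b c d e => ?_⟩
  rw [conj_vel, hnk 0 (by decide), hnk 1 (by decide), hnk 2 (by decide), hnk 3 (by decide), hnk 5 (by decide),
    hd.1, hd.2.1, hd.2.2.1, hd.2.2.2.1, hd.2.2.2.2]
  show ∃ a' : F, X 0 (k 0 * a) * X 5 (k 1 * b) * X 3 (k 2 * c) * X 2 (k 3 * d) * X 1 (k 5 * e) = _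
  rw [X0_eq, X1_eq, X2_eq, X3_eq, X5_eq, vel_mul, vel_mul, vel_mul, vel_mul]
  exact ⟨_, by congr 1 <;> ring⟩

theorem X7_vel (t a b c d e : F) : ∃ a' : F, X 7 t * vel a b c d e * (X 7 t)⁻¹ =
    vel a' b (c - t * b) (d + 2 * t * c - t ^ 2 * b) (e + 3 * t * d + 3 * t ^ 2 * c - t ^ 3 * b) := by
  have h0 : X 7 t * X 0 a * (X 7 t)⁻¹ = X 0 a := by rw [commV (by simp) t a, mul_inv_cancel_right]
  have h5 : X 7 t * X 5 e * (X 7 t)⁻¹ = X 5 e := by rw [commV (by simp) t e, mul_inv_cancel_right]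
  rw [conj_vel, h0, h5, cj (r := 7) (s := 1) (by decide) (by decide) (by decide) (by rw [negData.1]; decide),
    cj (r := 7) (s := 2) (by decide) (by decide) (by decide) (by rw [negData.1]; decide),
    cj (r := 7) (s := 3) (by decide) (by decide) (by decide) (by rw [negData.1]; decide)]
  simp only [cjWord, ctV.2.2.1, ctV.2.2.2.1, ctV.2.2.2.2.1, List.map_cons, List.map_nil, List.prod_cons,
    List.prod_nil, mul_one]
  simp only [X0_eq, X1_eq, X2_eq, X3_eq, X5_eq, vel_mul]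
  exact ⟨_, by congr 1 <;> push_cast <;> ring⟩

theorem X4_vel (t a b c d e : F) : ∃ a' : F, X 4 t * vel a b c d e * (X 4 t)⁻¹ =
    vel a' (b - 3 * t * c - 3 * t ^ 2 * d - t ^ 3 * e) (c + 2 * t * d + t ^ 2 * e) (d + t * e) e := by
  have h0 : X 4 t * X 0 a * (X 4 t)⁻¹ = X 0 a := by rw [commV (by simp) t a, mul_inv_cancel_right]
  have h1 : X 4 t * X 1 b * (X 4 t)⁻¹ = X 1 b := by rw [commV (by simp) t b, mul_inv_cancel_right]
  rw [conj_vel, h0, h1,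
    cj (r := 4) (s := 2) (by decide) (by decide) (by decide) (by rw [negData.2.2.2.2.1]; decide),
    cj (r := 4) (s := 3) (by decide) (by decide) (by decide) (by rw [negData.2.2.2.2.1]; decide),
    cj (r := 4) (s := 5) (by decide) (by decide) (by decide) (by rw [negData.2.2.2.2.1]; decide)]
  simp only [cjWord, ctV.2.2.2.2.2.1, ctV.2.2.2.2.2.2.1, ctV.2.2.2.2.2.2.2.1, List.map_cons, List.map_nil,
    List.prod_cons, List.prod_nil, mul_one]
  simp only [X0_eq, X1_eq, X2_eq, X3_eq, X5_eq, vel_mul]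
  exact ⟨_, by congr 1 <;> push_cast <;> ring⟩

theorem X4_past (t p q r : F) : X 4 t * (X 2 p * X 0 q * X 1 r) =
    X 2 p * X 1 (-(3 * t * p)) * X 0 q * X 1 r * X 4 t := by
  have h2 : X 4 t * X 2 p = X 2 p * X 1 (-(3 * t * p)) * X 4 t := by
    have h := cj (r := 4) (s := 2) (F := F) (by decide) (by decide) (by decide)
      (by rw [negData.2.2.2.2.1]; decide) t p
    simp [cjWord, ctV.2.2.2.2.2.2.2.1] at h
    rw [← h]
    simp [mul_assoc]
  have h0 : ∀ z : Gam F, z * X 4 t * X 0 q = z * X 0 q * X 4 t := fun z => by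
    rw [mul_assoc, commV (r := 4) (s := 0) (by simp), ← mul_assoc]
  have h1 : ∀ z : Gam F, z * X 4 t * X 1 r = z * X 1 r * X 4 t := fun z => by
    rw [mul_assoc, commV (r := 4) (s := 1) (by simp), ← mul_assoc]
  rw [← mul_assoc, ← mul_assoc, h2, h0, h1]

/-- The conjugate by a root element of the long simple root, without the coordinate at its negative. -/
theorem X6_vel (s a b c d : F) : ∃ a' : F, X 6 s * vel a b c d 0 * (X 6 s)⁻¹ =
    vel a' (b - s * a - s ^ 2 * d ^ 3) (c - s * d ^ 2) d 0 * X 4 (-(s * d)) := by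
  have hneg : chevG2.neg 6 = 5 := negData.2.1
  have hx5 : X 5 (0 : F) = 1 := X_zero (by decide)
  have h0 : X 6 s * X 0 a * (X 6 s)⁻¹ = X 0 a * X 1 (-(s * a)) := by
    rw [cj (r := 6) (s := 0) (by decide) (by decide) (by decide) (by rw [hneg]; decide)]
    simp [cjWord, ctV.2.2.2.2.2.2.2.2.1]
  have h3 : X 6 s * X 3 d * (X 6 s)⁻¹ = X 3 d *
      (X 4 (-(s * d)) * (X 2 (-(s * d ^ 2)) * X 0 (-(s * d ^ 3)) * X 1 (2 * s ^ 2 * d ^ 3))) := by
    rw [cj (r := 6) (s := 3) (by decide) (by decide) (by decide) (by rw [hneg]; decide)]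
    simp [cjWord, ctV.2.2.2.2.2.2.2.2.2, mul_assoc]
  have h1 : X 6 s * X 1 b * (X 6 s)⁻¹ = X 1 b := by
    rw [commV (r := 6) (s := 1) (by simp), mul_inv_cancel_right]
  have h2 : X 6 s * X 2 c * (X 6 s)⁻¹ = X 2 c := by
    rw [commV (r := 6) (s := 2) (by simp), mul_inv_cancel_right]
  rw [conj_vel, hx5, mul_one, mul_inv_cancel, mul_one, h0, h1, h2, h3, X4_past]
  simp only [← mul_assoc]
  simp only [X0_eq, X1_eq, X2_eq, X3_eq, X5_eq, vel_mul]
  exact ⟨_, by congr 2 <;> ring⟩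

/-- The rank one identity of the long simple root. -/
theorem X6_X5 (s e : F) (τ : Fˣ) (hτ : (τ : F) = 1 + s * e) :
    X 6 s * X 5 e = X 5 (e / τ) * psi F (diaG 1 τ) * X 6 (s / τ) := by
  obtain ⟨φ, hφ⟩ := exists_rankOneHom F (r := 6) (by decide)
  have hne : (τ : F) ≠ 0 := τ.ne_zero
  have hd : psi F (diaG 1 τ) = tor (τ⁻¹) (τ ^ 2) := by rw [psi_dia, one_div, div_one]
  refine Subtype.ext ?_
  rw [hd]
  simp only [Subgroup.coe_mul, coe_X, coe_tor]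
  rw [show ((τ⁻¹ : Fˣ) : F) ^ 2 * ((τ ^ 2 : Fˣ) : F) = 1 by push_cast; field_simp,
    show ((τ⁻¹ : Fˣ) : F) ^ 3 * ((τ ^ 2 : Fˣ) : F) ^ 2 = (τ : F) by push_cast; field_simp]
  obtain ⟨len, hR⟩ := (G2Inv.rules F).root
  rw [hpair, (sys F).hEl_one hR (hR.simple_lt _ i0.2), one_mul, simple_one, ← hφ.dia,
    show (5 : ℕ) = chevG2.neg 6 from negData.2.1.symm, ← hφ.upper, ← hφ.upper, ← hφ.lower, ← hφ.lower,
    ← map_mul, ← map_mul, ← map_mul]
  congr 1
  refine Subtype.ext ?_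
  simp only [Matrix.SpecialLinearGroup.coe_mul, diaT_val hne]
  simp only [upperT, lowerT, Matrix.mul_fin_two, Matrix.of.injective.eq_iff]
  ext i j
  fin_cases i <;> fin_cases j <;> simp <;> field_simp <;> rw [hτ] <;> ring

end Cfsg.Agent.G2Sq
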